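import Cfsg.Agent.H2.DC4
import Cfsg.Agent.GS.J2

/-! The core of the centralizer of the lift of a `3`-cycle. -/

set_option autoImplicit false
set_option linter.unusedSectionVars false

namespace Cfsg.H2.DC

open Subgroup Cfsg.L0 Cfsg.H8 Cfsg.FT Cfsg.BS Cfsg.BS.R Equiv Equiv.Perm
open scoped commutatorElement

variable {G : Type} [Group G] [Finite G] {M Y A P R W : Subgroup G}
  {a b c e g i j s t u v w x y z : G} {p r : ℕ}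

/-- the order inequality for a four-group acting on a group of odd order -/
theorem ri3 (ho : Odd ♯M) (k : KP a b) (na : a ∈ 𝒩 M) (nb : b ∈ 𝒩 M) :
    (𝒞₁ a).relIndex M ≤ (𝒞₁ a).relIndex (M ⊓ 𝒞₁ (a * b)) * (𝒞₁ a).relIndex (M ⊓ 𝒞₁ b) := by
  have n1 : a ∈ 𝒩 (M ⊓ 𝒞₁ (a * b)) := (le_norm_inf (zpowers_le.2 na) (le_norm_of_le (zpowers_le.2
    (mem_cent1.2 (by rw [mul_assoc, k.comm]))))) (mem_zpowers a)
  have n2 : a ∈ 𝒩 (M ⊓ 𝒞₁ b) := (le_norm_inf (zpowers_le.2 na) (le_norm_of_le (zpowers_le.2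
    (mem_cent1.2 k.comm.symm)))) (mem_zpowers a)
  have o1 := odd_of_le ho (inf_le_left (b := 𝒞₁ (a * b)))
  have o2 := odd_of_le ho (inf_le_left (b := 𝒞₁ b))
  rw [← card_conj M a, ← card_inv o1 k.ss n1, ← card_inv o2 k.ss n2, ← Nat.card_prod]
  refine Nat.card_le_card_of_surjective (fun q => ⟨(q.1.1 * q.2.1)⁻¹ * a * (q.1.1 * q.2.1)⁻¹⁻¹, _,
    inv_mem (mul_mem q.1.2.1.1 q.2.2.1.1), rfl⟩) ?_
  rintro ⟨_, y, hy, rfl⟩
  obtain ⟨c, -, y', y1, w, w1, c2, y2, w2, e⟩ :=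
    GJ.fac3 (fun x hx => odd_of_mem ho hx) k na nb (inv_mem hy)
  obtain ⟨v, v1, l, l1, rfl⟩ := dec o2 k.ss n2 (y := w) ⟨w1, mem_cent1.2 w2⟩
  obtain ⟨v', v2, l', l2, e'⟩ := dec o1 k.ss n1 (y := y' * v) (mul_mem ⟨y1, mem_cent1.2 y2⟩ ⟨v1.1.1,
    mem_cent1_comm.1 (mul_mem (mem_cent1_comm.1 v1.2) (mem_cent1_comm.1 v1.1.2))⟩)
  refine ⟨(⟨l', l2⟩, ⟨l, l1⟩), Subtype.ext ?_⟩
  have q : c * v' * a * (c * v')⁻¹ = a :=
    mul_inv_eq_iff_eq_mul.2 (mem_cent1.1 (mul_mem (mem_cent1.2 c2) v2.2))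
  have e2 : y = (c * v' * (l' * l))⁻¹ := by
    rw [← inv_eq_iff_eq_inv, e, ← mul_assoc, mul_assoc c, e']; group
  show (l' * l)⁻¹ * a * (l' * l)⁻¹⁻¹ = y * a * y⁻¹
  rw [e2]; nth_rewrite 2 [← q]; group

omit [Finite G] in
theorem InK.conj (h : InK P z i) (hz : g ∈ 𝒞₁ z) (hg : g ∈ 𝒩 P) : InK P z (g * i * g⁻¹) :=
  ⟨conj_mem_of_norm hg h.1, by
    have := mem_cent1.1 hz
    rw [show z * (g * i * g⁻¹) * z = z * g * i * (g⁻¹ * z) by group, ← this,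
      (show Commute g z from this).inv_left.eq, show g * z * i * (z * g⁻¹) = g * (z * i * z) * g⁻¹ by group,
      h.2]; group⟩

theorem ncard_inv (ho : Odd ♯P) (hz : z * z = 1) (hn : z ∈ 𝒩 P) :
    {i | InK P z i ∧ i ≠ 1}.ncard + 1 = (𝒞₁ z).relIndex P := by
  rw [← card_inv ho hz hn]
  exact Set.ncard_sdiff_singleton_add_one (s := {i | InK P z i}) (a := 1)
    ⟨one_mem _, by rw [mul_one, hz, inv_one]⟩

/-- the centralizer of the lift of a `3`-cycle -/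
structure UP (z x : G) : Prop where
  iz : Ivo z
  o : x ^ 3 = 1
  ne : x ≠ 1
  mem : x ∈ 𝒞₁ z
  nrk : ¬ Rk2 (𝒞₁ x)
  lem : ∀ M : Subgroup G, M ⊴ 𝒞₁ x ⊓ 𝒞₁ z → z ∉ M → M ≤ zpowers x
  dv : 720 ∣ ♯(𝒞₁ x ⊓ 𝒞₁ z)

/-- `O(C(x))` -/
abbrev UU (x : G) : Subgroup G := O2 (𝒞₁ x)

theorem UU_le (x : G) : UU x ≤ 𝒞₁ x := Op_le _ _
theorem UU_norm (x : G) : 𝒞₁ x ≤ 𝒩 (UU x) := (Op_nrm _ _).norm
theorem UU_odd (h : u ∈ UU x) : Odd (orderOf u) := odd_of_mem (odd_O2 _) h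
theorem cj_UU (g x : G) : cj g (UU x) = UU (g * x * g⁻¹) := by rw [cj_Op, cj_cent1]
theorem UU_inv (x : G) : UU x⁻¹ = UU x := by rw [UU, ← cent_zpowers, zpowers_inv, cent_zpowers]
theorem UU_norm' (h : g * x * g⁻¹ = x⁻¹) : g ∈ 𝒩 (UU x) := cj_eq_iff.1 (by rw [cj_UU, h, UU_inv])

namespace UP
variable (h : UP z x)
include h

theorem zx : z ∈ 𝒞₁ x := mem_cent1_comm.1 h.mem
theorem zz : z * z = 1 := h.iz.2
theorem c3 : ♯(zpowers x) = 3 := card3 h.o h.ne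
theorem xU : zpowers x ≤ UU x := le_O2 (by rw [h.c3]; decide)
  ⟨zpowers_le.2 (self_mem_cent1 x), cent_zpowers x ▸ cent_le_norm _⟩
theorem zU : z ∈ 𝒩 (UU x) := UU_norm x h.zx
theorem nz (hP : P ≤ UU x) : z ∉ P := fun q => h.iz.not_odd (UU_odd (hP q))
theorem UC : UU x ⊓ 𝒞₁ z ≤ zpowers x :=
  h.lem _ ⟨inf_le_inf_right _ (UU_le x), le_norm_inf (inf_le_left.trans (UU_norm x))
    (le_norm_of_le inf_le_right)⟩ (h.nz inf_le_left)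
theorem UC' : UU x ⊓ 𝒞₁ z = zpowers x := le_antisymm h.UC (le_inf h.xU (zpowers_le.2 h.mem))

theorem memU (ho : Odd (orderOf i)) (h1 : i ∈ 𝒞₁ x) (h2 : z * i * z = i⁻¹) : i ∈ UU x := by
  have := rank1_mul_mem h.nrk (mul_mem h1 h.zx) h.zx ⟨fun e => h.iz.not_odd (by
    rwa [← h.iz.inv, ← eq_inv_of_mul_eq_one_left e]), by
      rw [mul_assoc, ← mul_assoc z, h2, mul_inv_cancel]⟩ h.iz
  rwa [mul_assoc, h.zz, mul_one] at this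

theorem uniq (ha : a ∈ 𝒞₁ x ⊓ 𝒞₁ z) (h1 : Ivo a) : a = z := by_contra fun q =>
  h.nrk ⟨a, ha.1, z, h.zx, h1, h.iz, q, mem_cent1.1 ha.2⟩

theorem dec' (hu : u ∈ UU x) : ∃ c ∈ zpowers x, ∃ i, InK (UU x) z i ∧ u = c * i :=
  let ⟨c, h1, h2⟩ := dec (odd_O2 _) h.zz h.zU hu; ⟨c, h.UC h1, h2⟩

omit h in
theorem cm (hu : u ∈ UU x) (hc : c ∈ zpowers x) : c * u = u * c :=
  mem_cent.1 (show u ∈ 𝒞 (zpowers x) from cent_zpowers x ▸ UU_le x hu) c hc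

theorem der (hu : u ∈ UU x) (hv : v ∈ UU x) : ⁅u, v⁆ ∈ zpowers x := by
  obtain ⟨c, c1, i, i1, rfl⟩ := h.dec' hu
  obtain ⟨d, d1, j, j1, rfl⟩ := h.dec' hv
  obtain ⟨e, e1, l, l1, q⟩ := h.dec' (mul_mem i1.1 j1.1)
  have q2 : j * i = l * e⁻¹ := by
    have : z * (i * j) * z = z * i * z * (z * j * z) := by
      rw [show z * i * z * (z * j * z) = z * i * (z * z) * j * z by group, h.zz]; group
    rw [i1.2, j1.2, q, ← mul_assoc, ← mem_cent1.1 (zpowers_le.2 h.mem e1), mul_assoc e, mul_assoc e,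
      l1.2] at this
    rw [← inv_inj, mul_inv_rev, ← this]; group
  have : ⁅c * i, d * j⁆ = c * d * (e * e) * (d * c)⁻¹ := by
    rw [show ⁅c * i, d * j⁆ = c * (i * d) * j * (d * (j * c) * i)⁻¹ by
      rw [commutatorElement_def]; group, ← cm i1.1 d1, ← cm j1.1 c1,
      show c * (d * i) * j * (d * (c * j) * i)⁻¹ = c * d * (i * j * (j * i)⁻¹) * (d * c)⁻¹ by group,
      q, q2, mul_inv_rev l, inv_inv, mul_assoc e, ← mul_assoc l, ← cm l1.1 e1, mul_inv_cancel_right]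
  exact this ▸ mul_mem (mul_mem (mul_mem c1 d1) (mul_mem e1 e1)) (inv_mem (mul_mem d1 c1))

theorem nil : Nil (UU x) := nil_iff_iterComm.2 ⟨2, comm_eq_bot_iff.2 ((UU_le x).trans
  ((cent_zpowers x).ge.trans (cent_anti (commutator_le.2 fun _ hu _ hv => h.der hu hv))))⟩

theorem free2 (hA : A ≤ 𝒞₁ x ⊓ 𝒞₁ z) (h2 : IsPGroup 2 A) (ha : a ∈ A) (hi : InK (UU x) z i)
    (h1 : i ≠ 1) (e : a * i = i * a) : a = 1 := by
  by_contra q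
  obtain ⟨n, hn⟩ := isPGroup_iff_forall.1 h2 a ha
  obtain ⟨w, w1, w2⟩ := exists_ivo_zpowers (x := a) fun o =>
    q (eq_one_of_pElt_of_coprime ⟨n, hn⟩ (odd_orderOf_iff.1 o))
  obtain rfl := h.uniq (hA (zpowers_le.2 ha w1)) w2
  exact h1 (eq_one_of_inv_comm (UU_odd hi.1) h.zz hi.2
    (mem_cent1.1 (zpowers_le.2 (mem_cent1.2 e) w1)))

theorem dvd_ri (hA : A ≤ 𝒞₁ x ⊓ 𝒞₁ z) (h2 : IsPGroup 2 A) (hP : P ≤ UU x) (hn : A ≤ 𝒩 P)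
    (hz : z ∈ 𝒩 P) : ∃ m, ♯A ∣ m ∧ m + 1 = (𝒞₁ z).relIndex P :=
  ⟨_, dvd_free (Y := {i | InK P z i ∧ i ≠ 1})
    (fun _ ha _ hi => ⟨InK.conj hi.1 (hA ha).2 (hn ha), by simpa using hi.2⟩) fun _ ha _ hi e => h.free2 hA h2 ha ⟨hP hi.1.1, hi.1.2⟩ hi.2 e,
    ncard_inv (odd_of_le (odd_O2 _) hP) h.zz hz⟩

theorem syl2 : ∃ S : Subgroup G, S ≤ 𝒞₁ x ⊓ 𝒞₁ z ∧ IsPGroup 2 S ∧ 16 ∣ ♯S := by
  obtain ⟨S, hS⟩ := exists_isSyl 2 (𝒞₁ x ⊓ 𝒞₁ z)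
  refine ⟨S, hS.le, hS.isPGroup, (Nat.Coprime.pow_left 4 ((Nat.Prime.coprime_iff_not_dvd
    Nat.prime_two).2 hS.not_dvd)).dvd_of_dvd_mul_right ?_⟩
  rw [card_mul_ri hS.le]
  exact Dvd.dvd.trans (by decide) h.dv

theorem red (hr : r.Prime) (h3 : r ≠ 3) (hR : R ≤ 𝒞₁ x ⊓ 𝒞₁ z) (hc : ♯R = r) (hP : P ≤ UU x)
    (hn : 𝒞₁ x ⊓ 𝒞₁ z ≤ 𝒩 P) (h1 : ¬ P ≤ zpowers x) :
    ♯(P ⊓ 𝒞 R) < ♯P ∧ ♯P ≡ ♯(P ⊓ 𝒞 R) [MOD r] := by
  refine ⟨card_lt (inf_lt_left.2 fun q => ?_), card_modEq_cent hr (isPGroup_of_card hc) (hR.trans hn)⟩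
  have := card_dvd ((le_inf hR (cent_symm q)).trans (h.lem _ ((Nrm.refl _).inf_cent hn) fun m =>
    h1 ((le_inf hP (le_cent1_iff.2 m.2)).trans h.UC)))
  rw [hc, h.c3] at this
  exact h3 ((Nat.prime_dvd_prime_iff_eq hr Nat.prime_three).1 this)

theorem inv_of (hv : v * x * v⁻¹ = x⁻¹) (hW : W ≤ UU x ⊓ 𝒞₁ v) (hz : z ∈ 𝒩 W) (hw : w ∈ W) :
    z * w * z = w⁻¹ := by
  obtain ⟨c, c1, i, i1, rfl⟩ := dec (odd_of_le (odd_O2 _) (hW.trans inf_le_left)) h.zz hz hw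
  have : c = 1 := by_contra fun q => h.ne (GJ.eq_one_of_inv (odd3 h.o) (mem_cent1.1 (by
    rw [← cent_zpowers, cent_eq_cent1_of_prime (by rw [h.c3]; decide) (h.UC ⟨(hW c1.1).1, c1.2⟩) q]
    exact mem_cent1_comm.1 (hW c1.1).2)) hv)
  rw [this, one_mul, i1.2]

omit h in
theorem abel_of (hz : z * z = 1) (h1 : ∀ w ∈ W, z * w * z = w⁻¹) : Abel W :=
  fun a ha => mem_cent.2 fun b hb => by
    have := h1 _ (mul_mem ha hb)
    rw [show z * (a * b) * z = z * a * 1 * b * z by group, ← hz,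
      show z * a * (z * z) * b * z = z * a * z * (z * b * z) by group, h1 a ha, h1 b hb,
      ← mul_inv_rev, inv_inj] at this
    exact this

end UP

theorem pw_le {b c n : ℕ} (hp : 0 < p) (h : p ^ b ∣ n) (h' : ¬ p ^ (c + 1) ∣ n) : p ^ b ≤ p ^ c :=
  Nat.pow_le_pow_right hp (by_contra fun q => h' ((pow_dvd_pow p (by omega)).trans h))

theorem arith {a b c k m : ℕ} (hp : p.Prime) (h2 : p ≠ 2) (hk : k = 0 ∨ k = 1)
    (h1 : p ^ b ∣ (k + 9).factorial ∧ (p = 3 → p ^ b ≤ 27))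
    (h3 : p ^ c ∣ (k + 9).factorial ∧ (p = 3 → p ^ c ≤ 27)) (h4 : 16 ∣ m) (h5 : m + 1 = p ^ a)
    (h6 : p ^ a ≤ p ^ b * p ^ c) (h7 : a ≠ 0) :
    p = 7 ∧ a = 2 ∨ p = 5 ∧ a = 4 ∧ k = 1 ∨ p = 3 ∧ a = 4 := by
  have key : ∀ d, ¬ p ^ (d + 1) ∣ (k + 9).factorial → a ≤ d + d := fun d q =>
    (Nat.pow_le_pow_iff_right hp.one_lt).1 (h6.trans ((Nat.mul_le_mul (pw_le hp.pos h1.1 q)
      (pw_le hp.pos h3.1 q)).trans (pow_add p d d).ge))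
  have : p ≤ 10 := by
    by_contra q
    have := key 0 (by rw [zero_add, pow_one, hp.dvd_factorial]; omega)
    omega
  have := hp.two_le
  interval_cases p
  · exact absurd rfl h2
  · have : a ≤ 6 := (Nat.pow_le_pow_iff_right (by decide)).1
      (h6.trans ((Nat.mul_le_mul (h1.2 rfl) (h3.2 rfl)).trans (by decide : 27 * 27 ≤ 3 ^ 6)))
    interval_cases a <;> omega
  · exact absurd hp (by decide)
  · rcases hk with rfl | rfl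
    · have := key 1 (by decide)
      interval_cases a <;> omega
    · have := key 2 (by decide)
      interval_cases a <;> omega
  · exact absurd hp (by decide)
  · have := key 1 (by rcases hk with rfl | rfl <;> decide)
    interval_cases a <;> omega
  all_goals exact absurd hp (by decide)

theorem arith2 {a d : ℕ} (hp : p.Prime) (h1 : d ∣ p ^ a) (h2 : d < p ^ a) : ∃ c < a, d = p ^ c :=
  let ⟨c, _, e⟩ := (Nat.dvd_prime_pow hp).1 h1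
  ⟨c, (Nat.pow_lt_pow_iff_right hp.one_lt).1 (e ▸ h2), e⟩

variable {k : ℕ} {x1 x2 x3 : G} {f : G → Perm (Fin (k + 9))}

namespace Fr
variable (h : Fr z f x1 x2 x3 t)
include h

theorem cK : (k + 6).factorial ∣ ♯(𝒞₁ x1 ⊓ 𝒞₁ z) := by
  simpa using h.card_K h.l1 h.t1 (by have := h.ge; omega)

theorem up : UP z x1 := ⟨h.ivo, h.o1, h.n1, h.l1.mem, h.nrk h.l1 h.o1 h.t1,
  fun _ hM hz => h.lemS h.l1 h.o1 h.t1 (by have := h.ge; omega) hM hz,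
  (Nat.factorial_dvd_factorial (show 6 ≤ k + 6 by omega)).trans h.cK⟩

theorem kp : KP z t := ⟨h.zz, h.it.1.2, h.ivo.1, h.it.1.1, h.it.2, h.lt.cz⟩
theorem izt : Ivo (z * t) := ⟨h.kp.mul.w1, h.kp.mul.ww⟩
theorem ztC : z * t ∈ 𝒞₁ z := mul_mem (self_mem_cent1 z) h.lt.mem
theorem ztx : z * t * x1 * (z * t)⁻¹ = x1⁻¹ := by
  rw [show z * t * x1 * (z * t)⁻¹ = z * (t * x1 * t⁻¹) * z⁻¹ by group, h.tx1, ← (h.inv h.l1).cz,
    mul_inv_cancel_right]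

omit h in
theorem nW (hv : v ∈ 𝒞₁ z) (hz : z ∈ 𝒩 P) : z ∈ 𝒩 (P ⊓ 𝒞₁ v) :=
  le_norm_inf (zpowers_le.2 hz) (le_norm_of_le (zpowers_le.2 (mem_cent1_comm.1 hv))) (mem_zpowers z)

theorem bnd (hv : v ∈ 𝒞₁ z) (h1 : Ivo v) (h2 : v * x1 * v⁻¹ = x1⁻¹) (hP : P ≤ UU x1) (hz : z ∈ 𝒩 P) :
    ♯(P ⊓ 𝒞₁ v) ∣ (k + 9).factorial ∧ (IsPGroup 3 P → ♯(P ⊓ 𝒞₁ v) ≤ 27) := by
  obtain ⟨f', h'⟩ := h.at' hv h1
  obtain ⟨_, _, _, _, h'⟩ := h'.fr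
  exact ⟨by simpa using h'.card_dvd_fac inf_le_right fun q => h1.not_odd (UU_odd (hP q.1)),
    fun q => h'.ab27 inf_le_right (q.to_le inf_le_left) (UP.abel_of h.zz fun _ hw =>
      h.up.inv_of h2 (inf_le_inf_right _ hP) (nW hv hz) hw)⟩

theorem riP (hP : P ≤ UU x1) (hz : z ∈ 𝒩 P) (ht : t ∈ 𝒩 P) :
    (𝒞₁ z).relIndex P ≤ ♯(P ⊓ 𝒞₁ (z * t)) * ♯(P ⊓ 𝒞₁ t) :=
  (ri3 (odd_of_le (odd_O2 _) hP) h.kp hz ht).trans (Nat.mul_le_mul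
    (Nat.le_of_dvd (card_pos' _) (ri_dvd_card _ _)) (Nat.le_of_dvd (card_pos' _) (ri_dvd_card _ _)))

theorem opU (hp : p.Prime) (h1 : ¬ Op {p} (UU x1) ≤ zpowers x1) :
    p = 3 ∧ k = 0 ∧ ♯(Op {p} (UU x1)) = 243 := by
  have u := h.up
  have hP := Op_le {p} (UU x1)
  have pg := Op_pgroup hp (UU x1)
  have hn : 𝒞₁ x1 ⊓ 𝒞₁ z ≤ 𝒩 (Op {p} (UU x1)) := le_norm_Op _ (inf_le_left.trans (UU_norm _))
  have hz := norm_le_norm_Op {p} _ u.zU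
  have xP : p = 3 → zpowers x1 ≤ Op {p} (UU x1) := fun e =>
    u.nil.le_Op ((piG_single hp).2 (e ▸ (elem_zpowers u.o).pgroup)) u.xU
  have b0 := h.riP hP hz (norm_le_norm_Op {p} _ (UU_norm' h.tx1))
  generalize Op {p} (UU x1) = P at hP pg hn hz xP b0 h1 ⊢
  have := Fact.mk hp
  have b1 := h.bnd h.ztC h.izt h.ztx hP hz
  have b2 := h.bnd h.lt.mem h.it.1 h.tx1 hP hz
  obtain ⟨b, hb⟩ := IsPGroup.iff_card.1 (pg.to_le (inf_le_left (b := 𝒞₁ (z * t))))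
  obtain ⟨c, hc⟩ := IsPGroup.iff_card.1 (pg.to_le (inf_le_left (b := 𝒞₁ t)))
  obtain ⟨n, hn'⟩ := IsPGroup.iff_card.1 pg
  obtain ⟨a, -, ha⟩ := (Nat.dvd_prime_pow hp).1 (hn' ▸ ri_dvd_card (𝒞₁ z) P)
  obtain ⟨S, s1, s2, s3⟩ := u.syl2
  obtain ⟨m, m1, m2⟩ := u.dvd_ri s1 s2 hP (s1.trans hn) hz
  have cP := card_inf_mul_ri (𝒞₁ z) P
  have le : 𝒞₁ z ⊓ P ≤ zpowers x1 := (le_inf (inf_le_right.trans hP) inf_le_left).trans u.UC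
  have c1 : p ≠ 3 → ♯(𝒞₁ z ⊓ P) = 1 := fun q => card_eq_one_iff.2 (eq_bot_iff.2 ((le_inf inf_le_right le).trans
    (inf_eq_bot_of_cop (cop_of_pgroups hp Nat.prime_three q pg (elem_zpowers u.o).pgroup)).le))
  have red : ∀ r e : ℕ, r.Prime → r ≠ 3 → r ∣ (k + 6).factorial → ♯P = p ^ e →
      ∃ d < e, p ^ e ≡ p ^ d [MOD r] := fun r e hr h3 hd he => by
    obtain ⟨R, r1, r2⟩ := exists_card_eq hr (hd.trans h.cK)
    obtain ⟨r3, r4⟩ := u.red hr h3 r1 r2 hP hn h1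
    obtain ⟨d, d1, d2⟩ := arith2 hp (he ▸ card_dvd (inf_le_left (b := 𝒞 R))) (he ▸ r3)
    exact ⟨d, d1, by rwa [d2, he] at r4⟩
  have a0 : a ≠ 0 := fun e =>
    h1 ((le_inf (relIndex_eq_one.1 (by rw [ha, e, pow_zero])) le_rfl).trans le)
  rw [hb] at b0 b1
  rw [hc] at b0 b2
  rw [ha] at b0 m2 cP
  have := arith hp (fun e => ?_) h.hk ⟨b1.1, fun e => b1.2 (e ▸ pg)⟩ ⟨b2.1, fun e => b2.2 (e ▸ pg)⟩
    (s3.trans m1) m2 b0 a0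
  · rcases this with ⟨rfl, rfl⟩ | ⟨rfl, rfl, rfl⟩ | ⟨rfl, rfl⟩
    · obtain ⟨d, d1, d2⟩ := red 5 2 (by decide) (by decide) (Nat.dvd_factorial (by decide) (by omega))
        (by rw [← cP, c1 (by decide), one_mul])
      interval_cases d <;> exact absurd d2 (by decide)
    · obtain ⟨d, d1, d2⟩ := red 7 4 (by decide) (by decide) (by decide)
        (by rw [← cP, c1 (by decide), one_mul])
      interval_cases d <;> exact absurd d2 (by decide)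
    · rw [le_antisymm le (le_inf (zpowers_le.2 u.mem) (xP rfl)), u.c3] at cP
      refine ⟨rfl, h.hk.resolve_right ?_, cP.symm⟩
      rintro rfl
      obtain ⟨d, d1, d2⟩ := red 7 5 (by decide) (by decide) (by decide) cP.symm
      interval_cases d <;> exact absurd d2 (by decide)
  · subst e
    exact h1 ((eq_bot_iff.2 ((le_inf le_rfl hP).trans (inf_eq_bot_of_cop (cop_of_pgroup hp pg
      (odd_O2 _).not_two_dvd_nat)).le)).le.trans bot_le)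

theorem coreU : UU x1 ≤ zpowers x1 ∨ k = 0 ∧ ♯(UU x1) = 243 := by
  by_cases q : Op {3} (UU x1) ≤ zpowers x1
  · exact Or.inl (h.up.nil.le_of_forall_Op fun p hp _ => by_contra fun r =>
      r ((h.opU hp r).1 ▸ q))
  · obtain ⟨-, e, c⟩ := h.opU Nat.prime_three q
    refine Or.inr ⟨e, le_antisymm (h.up.nil.le_of_forall_Op fun p hp _ => ?_) (Op_le {3} _) ▸ c⟩
    by_cases r : Op {p} (UU x1) ≤ zpowers x1
    · exact r.trans (h.up.nil.le_Op ((piG_single Nat.prime_three).2 (elem_zpowers h.o1).pgroup) h.up.xU)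
    · rw [(h.opU hp r).1]

end Fr

end Cfsg.H2.DC
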