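import Cfsg.Agent.H2.DC5

/-! A self-centralizing elementary abelian group of order `16` and four-groups in its normalizer. -/

set_option autoImplicit false
set_option linter.unusedSectionVars false

namespace Cfsg.H2.DC

open Subgroup Cfsg.L0 Cfsg.H8 Cfsg.FT Cfsg.BS Cfsg.BS.R Equiv Equiv.Perm
open scoped commutatorElement

/-- coordinates -/
abbrev V4 := Bool × Bool × Bool × Bool
def ad (a b : V4) : V4 := (xor a.1 b.1, xor a.2.1 b.2.1, xor a.2.2.1 b.2.2.1, xor a.2.2.2 b.2.2.2)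
def o4 : V4 := (false, false, false, false)
def sm (c : Bool) (a : V4) : V4 := bif c then a else o4
def lin (p q r s a : V4) : V4 := ad (ad (ad (sm a.1 p) (sm a.2.1 q)) (sm a.2.2.1 r)) (sm a.2.2.2 s)

section
variable {H : Type} [Group H] {z t u v : H}
def bp (z : H) (c : Bool) : H := bif c then z else 1
def eps (z t u v : H) (a : V4) : H := bp z a.1 * bp t a.2.1 * bp u a.2.2.1 * bp v a.2.2.2

theorem bp_xor (h : z * z = 1) (c d : Bool) : bp z (xor c d) = bp z c * bp z d := by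
  cases c <;> cases d <;> simp [bp, h]
theorem bp_mem {E : Subgroup H} (h : z ∈ E) (c : Bool) : bp z c ∈ E := by
  cases c; exacts [one_mem _, h]
theorem bp_conj (n z : H) (c : Bool) : n * bp z c * n⁻¹ = bp (n * z * n⁻¹) c := by
  cases c <;> simp [bp]
theorem eps_conj (n : H) (a : V4) : n * eps z t u v a * n⁻¹ =
    eps (n * z * n⁻¹) (n * t * n⁻¹) (n * u * n⁻¹) (n * v * n⁻¹) a := by
  simp only [eps, ← bp_conj]; group

theorem eps_add {E : Subgroup H} (h : Elem 2 E) (hz : z ∈ E) (ht : t ∈ E) (hu : u ∈ E) (hv : v ∈ E)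
    (a b : V4) : eps z t u v (ad a b) = eps z t u v a * eps z t u v b := by
  have s : ∀ w ∈ E, w * w = 1 := fun w hw => by rw [← sq, h.pow hw]
  have c : ∀ {x y : H}, x ∈ E → y ∈ E → Commute x y := fun hx hy => h.abel.comm hx hy
  simp only [eps, ad]
  rw [bp_xor (s z hz), bp_xor (s t ht), bp_xor (s u hu), bp_xor (s v hv),
    (c (bp_mem hv _) (mul_mem (mul_mem (bp_mem hz _) (bp_mem ht _)) (bp_mem hu _))).mul_mul_mul_comm,
    (c (bp_mem hu _) (mul_mem (bp_mem hz _) (bp_mem ht _))).mul_mul_mul_comm,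
    (c (bp_mem ht _) (bp_mem hz _)).mul_mul_mul_comm]
end

variable {G : Type} [Group G] [Finite G] {ε : V4 → G} {a b c e g n m s t u v w x y z β : G}
  {π ρ π₁ π₂ : V4 → V4}

/-- a self-centralizing elementary abelian group -/
structure E4 (ε : V4 → G) : Prop where
  add : ∀ a b, ε (ad a b) = ε a * ε b
  inj : Function.Injective ε
  cent : ∀ g, (∀ a, g * ε a * g⁻¹ = ε a) → ∃ a, g = ε a

/-- `n` acts as `π` -/
def Act (ε : V4 → G) (n : G) (π : V4 → V4) : Prop := ∀ a, n * ε a * n⁻¹ = ε (π a)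

omit [Finite G] in
theorem Act.mul (h : Act ε n π) (h' : Act ε m ρ) : Act ε (n * m) fun a => π (ρ a) := fun a => by
  rw [← h, ← h']; group

def wp (g : Fin 4 → V4 → V4) : List (Fin 4) → V4 → V4
  | [], a => a
  | i :: l, a => g i (wp g l a)

omit [Finite G] in
theorem act_wp {N : Fin 4 → G} {P : Fin 4 → V4 → V4} (h : ∀ i, Act ε (N i) (P i)) (l : List (Fin 4)) :
    Act ε (l.map N).prod (wp P l) := by
  induction l with
  | nil => exact fun a => by simp [wp]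
  | cons i l ih => rw [List.map_cons, List.prod_cons]; exact (h i).mul ih

/-- two commuting involutions centralizing a fixed point free map -/
def Good (ρ π₁ π₂ : V4 → V4) : Prop := (∀ c, ∃ a, ρ a = ad c a) ∧ (∀ c, ρ c = c → c = o4) ∧
  (∀ a, π₁ (ρ a) = ρ (π₁ a)) ∧ (∀ a, π₂ (ρ a) = ρ (π₂ a)) ∧ (∀ a, π₁ (π₁ a) = a) ∧
  (∀ a, π₂ (π₂ a) = a) ∧ (∀ a, π₁ (π₂ a) = π₂ (π₁ a)) ∧ (∃ a, π₁ a ≠ a) ∧ (∃ a, π₂ a ≠ a) ∧
  ∃ a, π₁ a ≠ π₂ a

set_option synthInstance.maxSize 2048 in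
instance : Decidable (Good ρ π₁ π₂) := by unfold Good; infer_instance

namespace E4
variable (h : E4 ε)
include h

theorem zero : ε o4 = 1 := by
  have := h.add o4 o4
  rwa [show ad o4 o4 = o4 from rfl, left_eq_mul] at this

theorem comm (a b : V4) : ε a * ε b = ε b * ε a := by
  rw [← h.add, ← h.add, show ad a b = ad b a by simp [ad, Bool.xor_comm]]

theorem quo (h1 : Act ε n π) (h2 : Act ε m ρ) (e : ∀ a, π a = ρ a) : ∃ c, n = m * ε c := by
  obtain ⟨c, hc⟩ := h.cent (m⁻¹ * n) fun a => by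
    rw [show m⁻¹ * n * ε a * (m⁻¹ * n)⁻¹ = m⁻¹ * (n * ε a * n⁻¹) * m by group, h1, e, ← h2]; group
  exact ⟨c, by rw [← hc, mul_inv_cancel_left]⟩

theorem lift (hy : Act ε y ρ) (h1 : ∀ c, ∃ a, ρ a = ad c a) (hn : Act ε n π)
    (h2 : ∀ a, π (ρ a) = ρ (π a)) : ∃ m ∈ 𝒞₁ y, Act ε m π := by
  obtain ⟨c, hc⟩ := h.quo (hn.mul hy) (hy.mul hn) h2
  obtain ⟨a, ha⟩ := h1 c
  refine ⟨n * ε (ρ a), mem_cent1.2 ?_, fun b => ?_⟩
  · rw [← mul_assoc, ha, h.add, ← mul_assoc (y * n), ← hc, ← h.add, ← ha, ← hy]; group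
  · rw [← hn b, mul_assoc n, h.comm]; group

theorem eq_of (hy : Act ε y ρ) (h1 : ∀ c, ρ c = c → c = o4) (hn : Act ε n π₁) (hm : Act ε m π₂)
    (e : ∀ a, π₁ a = π₂ a) (cn : n ∈ 𝒞₁ y) (cm : m ∈ 𝒞₁ y) : n = m := by
  obtain ⟨c, rfl⟩ := h.quo hn hm e
  rw [h1 c (h.inj (by
    rw [← hy, ← mem_cent1.1 ((mul_mem_cancel_left cm).1 cn), mul_inv_cancel_right])), h.zero, mul_one]

theorem rk (hy : Act ε y ρ) (h1 : Act ε n π₁) (h2 : Act ε m π₂) (hg : Good ρ π₁ π₂) : Rk2 (𝒞₁ y) := by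
  obtain ⟨g1, g2, g3, g4, g5, g6, g7, ⟨a1, g8⟩, ⟨a2, g9⟩, a3, g10⟩ := hg
  obtain ⟨n, n1, n2⟩ := h.lift hy g1 h1 g3
  obtain ⟨m, m1, m2⟩ := h.lift hy g1 h2 g4
  have o : Act ε 1 fun a => a := fun a => by simp
  exact ⟨n, n1, m, m1,
    ⟨fun e => g8 (h.inj (by rw [← n2, e, o])), h.eq_of hy g2 (n2.mul n2) o g5 (mul_mem n1 n1) (one_mem _)⟩,
    ⟨fun e => g9 (h.inj (by rw [← m2, e, o])), h.eq_of hy g2 (m2.mul m2) o g6 (mul_mem m1 m1) (one_mem _)⟩,
    fun e => g10 (h.inj (by rw [← n2, e, m2])),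
    h.eq_of hy g2 (n2.mul m2) (m2.mul n2) g7 (mul_mem n1 m1) (mul_mem m1 n1)⟩

theorem act {p q r s : V4} (e : ε = eps z t u v) (h1 : n * z * n⁻¹ = ε p) (h2 : n * t * n⁻¹ = ε q)
    (h3 : n * u * n⁻¹ = ε r) (h4 : n * v * n⁻¹ = ε s) : Act ε n (lin p q r s) := fun a => by
  have k : ∀ c a, ε (sm c a) = bp (ε a) c := fun c a => by
    cases c; exacts [h.zero, rfl]
  rw [lin, h.add, h.add, h.add, k, k, k, k, ← h1, ← h2, ← h3, ← h4, e, eps_conj, eps]

end E4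

/-- the generators -/
def gn (c d : Bool) : Fin 4 → V4 → V4 :=
  ![lin (true, false, false, false) (false, true, false, false) (false, false, false, true)
      (false, false, true, true),
    lin (false, true, false, false) (true, true, false, false) (false, false, true, false)
      (false, false, false, true),
    lin (true, false, false, false) (false, true, false, false) (true, false, true, false)
      (c, true, false, true),
    lin (true, false, false, false) (d, true, true, false) (false, false, true, false)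
      (true, false, false, true)]

theorem good (c d : Bool) : (∃ l₁ l₂, Good (wp (gn c d) [1, 0]) (wp (gn c d) l₁) (wp (gn c d) l₂)) ∧
    ∃ l₁ l₂, Good (wp (gn c d) [1, 0, 0]) (wp (gn c d) l₁) (wp (gn c d) l₂) := by
  cases c <;> cases d
  · exact ⟨⟨[2], [0, 0, 2, 0], by decide +kernel⟩,
      [0, 1, 2, 3, 0, 1, 3, 2], [0, 2, 3, 0, 1, 3, 2, 1], by decide +kernel⟩
  · exact ⟨⟨[2], [0, 0, 2, 0], by decide +kernel⟩,
      [0, 1, 3, 0, 0, 2, 1, 3], [0, 3, 0, 0, 2, 1, 3, 1], by decide +kernel⟩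
  · exact ⟨⟨[0, 3, 2, 3, 0, 3, 2, 3], [1, 3, 2, 3, 1, 3, 2, 3], by decide +kernel⟩,
      [2], [0, 0, 2, 0], by decide +kernel⟩
  · exact ⟨⟨[0, 0, 1, 3, 0, 2, 1, 3], [0, 0, 3, 0, 2, 1, 3, 1], by decide +kernel⟩,
      [2], [0, 0, 2, 0], by decide +kernel⟩

omit [Finite G] in
theorem mem_zp3 (o : x ^ 3 = 1) (h : c ∈ zpowers x) : c = 1 ∨ c = x ∨ c = x⁻¹ := by
  obtain ⟨n, rfl⟩ := h
  have : x ^ n = x ^ (n % 3) := by
    nth_rewrite 1 [← Int.emod_add_mul_ediv n 3]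
    rw [zpow_add, zpow_mul, zpow_ofNat, o, one_zpow, mul_one]
  have e : x ^ (2 : ℤ) = x⁻¹ := by
    rw [eq_inv_iff_mul_eq_one, ← o, zpow_ofNat, ← pow_succ]
  have : n % 3 = 0 ∨ n % 3 = 1 ∨ n % 3 = 2 := by omega
  rcases this with q | q | q <;> simp [*]

/-- `β` rotates the involutions of `⟨z, t⟩` -/
structure Rot (z t β : G) : Prop where
  z' : β * z * β⁻¹ = t
  t' : β * t * β⁻¹ = z * t

namespace Rot
variable (h : Rot z t β)
include h

theorem zt (k : KP z t) : β * (z * t) * β⁻¹ = z := by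
  rw [← conj_mul, h.z', h.t', ← mul_assoc, k.comm, mul_assoc, k.ww, mul_one]

theorem four (k : KP z t) : Rot z t (β * β * (β * β)) := by
  have : ∀ w, β * β * (β * β) * w * (β * β * (β * β))⁻¹ =
    β * (β * (β * (β * w * β⁻¹) * β⁻¹) * β⁻¹) * β⁻¹ := fun w => by group
  exact ⟨by rw [this, h.z', h.t', h.zt k, h.z'], by rw [this, h.t', h.zt k, h.z', h.t']⟩

theorem mul (hc : c ∈ 𝒞₁ z ⊓ 𝒞₁ t) : Rot z t (c * β) := by
  have : ∀ w, c * β * w * (c * β)⁻¹ = c * (β * w * β⁻¹) * c⁻¹ := fun w => by group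
  have a := mul_inv_eq_iff_eq_mul.2 (mem_cent1.1 hc.1)
  have b := mul_inv_eq_iff_eq_mul.2 (mem_cent1.1 hc.2)
  exact ⟨by rw [this, h.z', b], by rw [this, h.t', ← conj_mul, a, b]⟩

omit h in
theorem inf_eq (z t : G) : 𝒞₁ z ⊓ 𝒞₁ (z * t) = 𝒞₁ z ⊓ 𝒞₁ t := by
  ext g
  simp only [mem_inf, mem_cent1_comm (x := g)]
  exact and_congr_right fun q => mul_mem_cancel_left q

theorem norm (k : KP z t) : β ∈ 𝒩 (𝒞₁ z ⊓ 𝒞₁ t) := cj_eq_iff.1 (by
  rw [cj_inf, cj_cent1, cj_cent1, h.z', h.t', ← k.comm, inf_eq, inf_comm])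

end Rot

end Cfsg.H2.DC
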