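import Cfsg.Agent.H2.DC6

/-! The case that the centralizer of the lift of a `3`-cycle lies in `C(z)`. -/

set_option autoImplicit false
set_option linter.unusedSectionVars false

namespace Cfsg.H2.DC

open Subgroup Cfsg.L0 Cfsg.H8 Cfsg.FT Cfsg.BS Cfsg.BS.R Equiv Equiv.Perm
open scoped commutatorElement

section
variable (k : ℕ)
def ub : Perm (Fin (k + 9)) := swap 0 3 * swap 1 6 * swap 4 5 * swap 7 8
def vb : Perm (Fin (k + 9)) := c2 k * c3 k * ub k * (c2 k * c3 k)⁻¹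
def e1 : Perm (Fin (k + 9)) := swap 4 7 * swap 5 8
def e2 : Perm (Fin (k + 9)) := swap 1 6 * swap 7 8
end

variable {G : Type} [Group G] [Finite G] {k : ℕ} {z t a b c e g u v w w' x y x1 x2 x3 β : G}
  {f : G → Perm (Fin (k + 9))} {σ τ π : Perm (Fin (k + 9))} {M W : Subgroup G}

/-- involutions of `C(V)` whose product with `b` has order `3` -/
structure XX (z t b w : G) : Prop where
  mem : w ∈ 𝒞₁ z ⊓ 𝒞₁ t
  sq : w * w = 1
  cb : (w * b) ^ 3 = 1
  ne : w ≠ 1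

theorem XX.conj (h : XX z t b w) (h1 : g ∈ 𝒩 (𝒞₁ z ⊓ 𝒞₁ t)) (h2 : g * b = b * g) :
    XX z t b (g * w * g⁻¹) :=
  ⟨conj_mem_of_norm h1 h.mem, by rw [conj_mul, h.sq]; simp, by
    rw [← mul_inv_eq_iff_eq_mul.2 h2, conj_mul, conj_pow, h.cb]; simp, by simpa using h.ne⟩

theorem Lf.cj (h : Lf z f a σ) (g : G) :
    Lf (g * z * g⁻¹) (fun a => f (g⁻¹ * a * g)) (g * a * g⁻¹) σ :=
  ⟨cj_cent1 g z ▸ conj_mem_cj h.mem, by rw [← h.eq]; congr 1; group⟩

namespace Fr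
variable (h : Fr z f x1 x2 x3 t)
include h

theorem cj (g : G) : Fr (g * z * g⁻¹) (fun a => f (g⁻¹ * a * g)) (g * x1 * g⁻¹) (g * x2 * g⁻¹)
    (g * x3 * g⁻¹) (g * t * g⁻¹) :=
  ⟨h.toD9.cj g, h.l1.cj g, h.l2.cj g, h.l3.cj g, by rw [conj_pow, h.o1]; simp,
    by rw [conj_pow, h.o2]; simp, by rw [conj_pow, h.o3]; simp, h.lt.cj g⟩

theorem bV : x2 * x3 ∈ 𝒞₁ z ⊓ 𝒞₁ t := ⟨h.lb.mem, mem_cent1.2 h.tb'.symm⟩

theorem beta : ∃ β, Rot z t β ∧ β * (x2 * x3) = x2 * x3 * β := by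
  obtain ⟨g, hg⟩ := h.conjG h.lt.mem h.it.1
  obtain ⟨c, c1, c2⟩ := (hg ▸ h.toD9.cj g).conjC (t := g * t * g⁻¹) (t' := z * t)
    (hg ▸ (h.lt.cj g).mem) (h.it.1.conj g) (fun e => h.it.2 (by simpa using e.trans hg.symm))
    (mul_mem (mem_cent1_comm.1 h.lt.mem) (self_mem_cent1 t)) h.izt (by simpa using h.ivo.1)
  have r : Rot z t (c * g) := ⟨by
    rw [show c * g * z * (c * g)⁻¹ = c * (g * z * g⁻¹) * c⁻¹ by group, hg, mem_cent1.1 c1,
      mul_inv_cancel_right], by rw [← c2]; group⟩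
  obtain ⟨q, q1, n, n1, e⟩ := h.sylb.frattini (r.norm h.kp)
  have r' := r.mul (inv_mem q1)
  rw [e, inv_mul_cancel_left] at r'
  have : n * n ∈ 𝒞₁ (x2 * x3) := mem_cent1.2 (mul_inv_eq_iff_eq_mul.1 (by
    rw [show n * n * (x2 * x3) * (n * n)⁻¹ = n * (n * (x2 * x3) * n⁻¹) * n⁻¹ by group]
    rcases mem_zp3 h.ob (conj_mem_of_norm n1 (mem_zpowers _)) with q | q | q
    · exact absurd (by simpa using q) h.nb
    · rw [q, q]
    · rw [q, ← conj_inv, q, inv_inv]))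
  exact ⟨_, r'.four h.kp, mem_cent1.1 (mul_mem this this)⟩

theorem cbz (hw : w ∈ 𝒞₁ z) : (w * z * (x2 * x3)) ^ 3 = (w * (x2 * x3)) ^ 3 * z := by
  rw [mul_assoc, ← h.lb.cz, ← mul_assoc, (show Commute _ z from mem_cent1.1 (mul_mem hw h.lb.mem)).mul_pow,
    pow_succ z, sq, h.zz, one_mul]

theorem xf (hw : XX z t (x2 * x3) w) : (∀ p, f w (f w p) = p) ∧ (∀ p, f w (tb k p) = tb k (f w p)) ∧
    (∀ p, tb k p = p → f w p = p) ∧ f w ((c2 k * c3 k) (f w 0)) = (c2 k * c3 k)⁻¹ (f w 0) ∧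
    (c2 k * c3 k) (f w 0) ≠ f w 0 := by
  have a1 := app_app (h.ff hw.mem.1 hw.sq)
  have a2 := app_comm (h.comm_f (lf hw.mem.1) h.lt (mem_cent1.1 hw.mem.2))
  have a3 : ∀ p, f w ((c2 k * c3 k) (f w ((c2 k * c3 k) (f w ((c2 k * c3 k) p))))) = p := fun p =>
    congrFun (congrArg DFunLike.coe ((h.pow (h.mul (lf hw.mem.1) h.lb) 3).uq (hw.cb ▸ h.one))) p
  have d1 : ∀ p, tb k p = p → (c2 k * c3 k) p = p := by rcases h.hk with rfl | rfl <;> decide +kernel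
  have d2 : (c2 k * c3 k) 0 = 0 := by rcases h.hk with rfl | rfl <;> decide +kernel
  have a4 : ∀ p, tb k p = p → f w p = p := fun p q => by
    have := a3 p
    rwa [d1 p q, d1 (f w p) (by rw [← a2, q]), a1, d1 p q] at this
  have a5 : f w ((c2 k * c3 k) (f w 0)) = (c2 k * c3 k)⁻¹ (f w 0) := by
    rw [Perm.eq_inv_iff_eq, ← (f w).injective.eq_iff, a1]
    have := a3 0
    rwa [d2] at this
  refine ⟨a1, a2, a4, a5, fun q => ?_⟩
  rw [q, a1, Perm.eq_inv_iff_eq, d2] at a5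
  have d3 : ∀ p, p = 0 ∨ p = tb k 0 ∨ tb k p = p ∨ p ∈ (c1 k).supportᶜ := by
    rcases h.hk with rfl | rfl <;> decide +kernel
  have d4 : (c1 k).supportᶜ.card ≤ 7 := by rcases h.hk with rfl | rfl <;> decide +kernel
  have := Finset.card_le_card fun p (hp : p ∈ (f w).support) => (((d3 p).resolve_left fun e =>
    mem_support.1 hp (e ▸ a5.symm)).resolve_left fun e => mem_support.1 hp
      (by rw [e, a2, ← a5])).resolve_left fun e => mem_support.1 hp (a4 p e)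
  rw [h.supp_eq hw.mem.1 ⟨hw.ne, hw.sq⟩ fun e => h.ivo.1 (by
    have := h.cbz (one_mem _)
    rwa [one_mul, one_mul, ← e, hw.cb, h.ob, one_mul, eq_comm, e] at this)] at this
  omega

theorem xuq (hw : XX z t (x2 * x3) w) (hw' : XX z t (x2 * x3) w') (e : f w 0 = f w' 0) : w = w' := by
  obtain ⟨a1, a2, a3, a4, a5⟩ := h.xf hw
  obtain ⟨b1, b2, b3, b4, -⟩ := h.xf hw'
  have s1 : ∀ p, f w p = f w' p → f w (tb k p) = f w' (tb k p) := fun p q => by rw [a2, b2, q]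
  have s2 : ∀ p, f w p = f w' p → f w (f w p) = f w' (f w p) := fun p q => by rw [a1, q, b1]
  have s3 : f w ((c2 k * c3 k) (f w 0)) = f w' ((c2 k * c3 k) (f w 0)) := by rw [a4, e, b4]
  have s4 := a4 ▸ s2 _ s3
  have d : ∀ a p, (c2 k * c3 k) a ≠ a → p = 0 ∨ p = tb k 0 ∨ p = a ∨ p = tb k a ∨
      p = (c2 k * c3 k) a ∨ p = tb k ((c2 k * c3 k) a) ∨ p = (c2 k * c3 k)⁻¹ a ∨
      p = tb k ((c2 k * c3 k)⁻¹ a) ∨ tb k p = p := by rcases h.hk with rfl | rfl <;> decide +kernel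
  have : f w = f w' := Equiv.ext fun p => by
    rcases d _ p a5 with rfl | rfl | rfl | rfl | rfl | rfl | rfl | rfl | q
    exacts [e, s1 _ e, s2 _ e, s1 _ (s2 _ e), s3, s1 _ s3, s4, s1 _ s4, by rw [a3 p q, b3 p q]]
  refine (h.eq_or (lf hw.mem.1) ⟨hw'.mem.1, this.symm⟩).resolve_right fun q => h.ivo.1 ?_
  have := h.cbz hw'.mem.1
  rwa [← q, hw.cb, hw'.cb, one_mul, eq_comm] at this

theorem orb (hw : XX z t (x2 * x3) w) (hw' : XX z t (x2 * x3) w') (i : ℕ)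
    (e : f w' 0 = ((c2 k * c3 k) ^ i) (f w 0)) :
    ∃ c ∈ zpowers (x2 * x3), w' = c * w * c⁻¹ := by
  refine ⟨_, npow_mem_zpowers _ i, h.xuq hw' (hw.conj (le_norm _ (pow_mem h.bV i))
    ((Commute.refl _).pow_left i)) ?_⟩
  have d2 : (c2 k * c3 k) 0 = 0 := by rcases h.hk with rfl | rfl <;> decide +kernel
  rw [(h.conj (h.pow h.lb i) (lf hw.mem.1)).eq, e, Perm.mul_apply, Perm.mul_apply,
    Perm.inv_eq_iff_eq.2 (pow_apply_eq_self_of_apply_eq_self d2 i).symm]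

theorem exu : ∃ u, Lf z f u (ub k) ∧ XX z t (x2 * x3) u := by
  obtain ⟨u, hu⟩ := h.ex (σ := ub k) (by rcases h.hk with rfl | rfl <;> decide +kernel)
  have key : ∀ u, Lf z f u (ub k) → (u * (x2 * x3)) ^ 3 = 1 → XX z t (x2 * x3) u := fun u hu q => by
    have i := h.ivo8 hu (by rcases h.hk with rfl | rfl <;> decide +kernel)
      (by rcases h.hk with rfl | rfl <;> decide +kernel)
    have := h.sq8 (h.mul hu h.lt) (by rcases h.hk with rfl | rfl <;> decide +kernel)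
      (by rcases h.hk with rfl | rfl <;> decide +kernel)
    exact ⟨⟨hu.mem, mem_cent1.2 (by
      rw [eq_inv_of_mul_eq_one_left this, mul_inv_rev, i.1.inv, h.it.1.inv])⟩, i.1.2, q, i.1.1⟩
  rcases h.of_one ((h.pow (h.mul hu h.lb) 3).cast
    (by rcases h.hk with rfl | rfl <;> decide +kernel)) with q | q
  · exact ⟨u, hu, key u hu q⟩
  · exact ⟨_, h.mulz hu, key _ (h.mulz hu) (by rw [h.cbz hu.mem, q, h.zz])⟩

theorem beta0 (hu : XX z t (x2 * x3) u) :
    ∃ β, Rot z t β ∧ β * (x2 * x3) = x2 * x3 * β ∧ β * u * β⁻¹ = u := by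
  obtain ⟨β, r, hb⟩ := h.beta
  have cz : ∀ c ∈ zpowers (x2 * x3), ∀ g, g * (x2 * x3) = x2 * x3 * g → c * g = g * c :=
    fun c hc g hg => mem_cent1.1 (zpowers_le.2 (mem_cent1.2 hg.symm) hc)
  have key : ∀ β, Rot z t β → β * (x2 * x3) = x2 * x3 * β → ∀ c ∈ zpowers (x2 * x3),
      β * u * β⁻¹ = c * u * c⁻¹ → ∃ β, Rot z t β ∧ β * (x2 * x3) = x2 * x3 * β ∧ β * u * β⁻¹ = u :=
    fun β r hb c hc e => ⟨_, r.mul (inv_mem (zpowers_le.2 h.bV hc)), mem_cent1.1 (mul_mem (inv_mem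
      (zpowers_le.2 (self_mem_cent1 _) hc)) (mem_cent1.2 hb)), by
        rw [show c⁻¹ * β * u * (c⁻¹ * β)⁻¹ = c⁻¹ * (β * u * β⁻¹) * c by group, e]; group⟩
  have w1 := hu.conj (r.norm h.kp) hb
  have w2 := w1.conj (r.norm h.kp) hb
  have d : ∀ a b c : Fin (k + 9), (c2 k * c3 k) a ≠ a → (c2 k * c3 k) b ≠ b → (c2 k * c3 k) c ≠ c →
      ∃ i : Fin 3, b = ((c2 k * c3 k) ^ i.1) a ∨ c = ((c2 k * c3 k) ^ i.1) a ∨
        c = ((c2 k * c3 k) ^ i.1) b := by rcases h.hk with rfl | rfl <;> decide +kernel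
  obtain ⟨i, q | q | q⟩ := d _ _ _ (h.xf hu).2.2.2.2 (h.xf w1).2.2.2.2 (h.xf w2).2.2.2.2
  · obtain ⟨c, hc, e⟩ := h.orb hu w1 i q
    exact key β r hb c hc e
  · obtain ⟨c, hc, e⟩ := h.orb hu w2 i q
    have hb2 := mul_mem (mem_cent1.2 hb) (mem_cent1.2 hb)
    refine key _ (r.four h.kp) (mem_cent1.1 (mul_mem hb2 hb2)) _ (mul_mem hc hc) ?_
    rw [show β * β * (β * β) * u * (β * β * (β * β))⁻¹ = β * β * (β * (β * u * β⁻¹) * β⁻¹) * (β * β)⁻¹
      by group, e, show β * β * (c * u * c⁻¹) * (β * β)⁻¹ = β * β * c * u * (β * β * c)⁻¹ by group,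
      ← cz c hc _ (mem_cent1.1 hb2), show c * (β * β) * u * (c * (β * β))⁻¹ =
        c * (β * (β * u * β⁻¹) * β⁻¹) * c⁻¹ by group, e]; group
  · obtain ⟨c, hc, e⟩ := h.orb w1 w2 i q
    refine key β r hb c hc ?_
    rwa [show c * (β * u * β⁻¹) * c⁻¹ = c * β * u * (c * β)⁻¹ by group, cz c hc β hb,
      show β * c * u * (β * c)⁻¹ = β * (c * u * c⁻¹) * β⁻¹ by group, mul_left_inj, mul_right_inj] at e

theorem lE (hu : Lf z f u (ub k)) (a : V4) : Lf z f (eps z t u (x2 * x3 * u * (x2 * x3)⁻¹) a)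
    (eps 1 (tb k) (ub k) (vb k) a) := by
  have : ∀ {g σ} (_ : Lf z f g σ) (c : Bool), Lf z f (bp g c) (bp σ c) := fun q c => by
    cases c; exacts [h.one, q]
  exact h.mul (h.mul (h.mul (this h.lz _) (this h.lt _)) (this hu _)) (this (h.conj h.lb hu) _)

theorem buv (hx : XX z t (x2 * x3) u) : x2 * x3 * (x2 * x3 * u * (x2 * x3)⁻¹) * (x2 * x3)⁻¹ =
    (u * (x2 * x3 * u * (x2 * x3)⁻¹))⁻¹ := by
  have := h.ob
  have e := hx.cb
  generalize x2 * x3 = b at this e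
  have i : b⁻¹ = b * b := inv_eq_of_mul_eq_one_left (by rw [← this, pow_succ, sq])
  have e1 : ∀ x, b * (b * (b * x)) = x := fun x => by
    rw [← mul_assoc, ← mul_assoc, ← sq, ← pow_succ, this, one_mul]
  have e2 : ∀ x, u * (b * (u * (b * (u * (b * x))))) = x := fun x => by
    nth_rewrite 2 [← one_mul x]
    rw [← e, pow_succ, sq]; simp only [mul_assoc]
  rw [eq_inv_iff_mul_eq_one, ← mul_one (_ * _)]
  simp only [i, mul_assoc, e1, e2]

theorem cuv (hx : XX z t (x2 * x3) u) :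
    u * (x2 * x3 * u * (x2 * x3)⁻¹) = x2 * x3 * u * (x2 * x3)⁻¹ * u := by
  have v := hx.conj (le_norm _ h.bV) rfl
  have := (v.conj (le_norm _ h.bV) rfl).sq
  rw [h.buv hx, ← mul_inv_rev, inv_eq_one] at this
  rw [eq_inv_of_mul_eq_one_left this, mul_inv_rev, inv_eq_of_mul_eq_one_right hx.sq,
    inv_eq_of_mul_eq_one_right v.sq]

theorem e4 (hu : Lf z f u (ub k)) (hx : XX z t (x2 * x3) u) :
    E4 (eps z t u (x2 * x3 * u * (x2 * x3)⁻¹)) := by
  have l := h.lE hu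
  have xv := hx.conj (le_norm _ h.bV) rfl
  have c := h.cuv hx
  generalize x2 * x3 * u * (x2 * x3)⁻¹ = v at l xv c
  have z2 : ∀ {w : G}, w * w = 1 → Elem 2 (zpowers w) := fun q => elem_zpowers (by rw [sq, q])
  have ad' := eps_add ((((z2 h.zz).sup (z2 h.it.1.2) (cent_zpowers t ▸ zpowers_le.2
    (mem_cent1_comm.1 h.lt.mem))).sup (z2 hx.sq) (cent_zpowers u ▸ sup_le (zpowers_le.2
      (mem_cent1_comm.1 hx.mem.1)) (zpowers_le.2 (mem_cent1_comm.1 hx.mem.2)))).sup (z2 xv.sq)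
    (cent_zpowers v ▸ sup_le (sup_le (zpowers_le.2 (mem_cent1_comm.1 xv.mem.1))
      (zpowers_le.2 (mem_cent1_comm.1 xv.mem.2))) (zpowers_le.2 (mem_cent1.2 c))))
    (mem_sup_left (mem_sup_left (mem_sup_left (mem_zpowers z))))
    (mem_sup_left (mem_sup_left (mem_sup_right (mem_zpowers t))))
    (mem_sup_left (mem_sup_right (mem_zpowers u))) (mem_sup_right (mem_zpowers v))
  have ez : eps z t u v (true, false, false, false) = z := by simp [eps, bp]
  have et : eps z t u v (false, true, false, false) = t := by simp [eps, bp]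
  have d1 : ∀ a b : V4, eps 1 (tb k) (ub k) (vb k) a 0 = eps 1 (tb k) (ub k) (vb k) b 0 →
      a = b ∨ a = ad b (true, false, false, false) := by rcases h.hk with rfl | rfl <;> decide +kernel
  have d2 : ∀ p, tb k p ≠ p → ∃ a : V4, eps 1 (tb k) (ub k) (vb k) a 0 = p := by
    rcases h.hk with rfl | rfl <;> decide +kernel
  refine ⟨ad', fun a b e => (d1 a b (by rw [(l a).uq (e ▸ l b)])).resolve_right fun q =>
    h.ivo.1 (by rwa [q, ad', ez, mul_eq_left] at e), fun g hg => ?_⟩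
  have gz : g ∈ 𝒞₁ z := mem_cent1.2 (mul_inv_eq_iff_eq_mul.1 (ez ▸ hg _))
  have cf := fun a => h.comm_f (lf gz) (l a) (mul_inv_eq_iff_eq_mul.1 (hg a))
  obtain ⟨a, ha⟩ := d2 (f g 0) (by
    rw [← app_comm (h.comm_f (lf gz) h.lt (mul_inv_eq_iff_eq_mul.1 (et ▸ hg _))),
      (f g).injective.ne_iff]
    rcases h.hk with rfl | rfl <;> decide +kernel)
  have l2 := h.mul (h.inv (l a)) (lf gz)
  have fx : ∀ p ∈ ((eps 1 (tb k) (ub k) (vb k) a)⁻¹ * f g).support, p ∈ (tb k).supportᶜ := fun p hp => by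
    rw [Finset.mem_compl, mem_support]
    intro q
    obtain ⟨b, rfl⟩ := d2 p q
    refine mem_support.1 hp ?_
    rw [Perm.mul_apply, app_comm (cf b), ← ha, ← app_comm (h.comm_f (l a) (l b) (by
      rw [← ad', ← ad', show ad a b = ad b a by simp [ad, Bool.xor_comm]])), Perm.inv_eq_iff_eq]
  have d3 : (tb k).supportᶜ.card ≤ 2 := by rcases h.hk with rfl | rfl <;> decide +kernel
  have := (Finset.card_le_card fx).trans d3
  have s := h.sign l2
  rcases h.of_one (l2.cast (card_support_le_one.1 (by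
    by_contra q
    rw [(card_support_eq_two.1 (by omega)).sign_eq] at s
    exact absurd s (by decide)))) with q | q
  · exact ⟨a, (inv_mul_eq_one.1 q).symm⟩
  · exact ⟨ad a (true, false, false, false), by rw [ad', ez]; exact (inv_mul_eq_iff_eq_mul.1 q)⟩

theorem rkB : ∃ β, Rot z t β ∧ β * (x2 * x3) = x2 * x3 * β ∧ β ^ 3 = 1 ∧ Rk2 (𝒞₁ β) ∧
    Rk2 (𝒞₁ (β * (x2 * x3))) ∧ Rk2 (𝒞₁ (β * (x2 * x3)⁻¹)) := by
  obtain ⟨u, hu, hx⟩ := h.exu
  obtain ⟨β, r, hb, bu⟩ := h.beta0 hx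
  have E := h.e4 hu hx
  have l := h.lE hu
  have xv := hx.conj (le_norm _ h.bV) rfl
  have c := h.cuv hx
  have bv := h.buv hx
  have lv : Lf z f _ (vb k) := h.conj h.lb hu
  have βv : β * (x2 * x3 * u * (x2 * x3)⁻¹) * β⁻¹ = x2 * x3 * u * (x2 * x3)⁻¹ := by
    rw [← conj_mul, ← conj_mul, ← conj_inv, mul_inv_eq_iff_eq_mul.2 hb, bu]
  generalize hv : x2 * x3 * u * (x2 * x3)⁻¹ = v at E l xv c bv lv βv
  rw [mul_inv_rev u, inv_eq_of_mul_eq_one_right hx.sq, inv_eq_of_mul_eq_one_right xv.sq, ← c] at bv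
  obtain ⟨e, le⟩ := h.ex (σ := e1 k) (by rcases h.hk with rfl | rfl <;> decide +kernel)
  obtain ⟨e', le'⟩ := h.ex (σ := e2 k) (by rcases h.hk with rfl | rfl <;> decide +kernel)
  have ee := h.sq le (by rcases h.hk with rfl | rfl <;> decide +kernel)
    (by rcases h.hk with rfl | rfl <;> decide +kernel)
  have ee' := h.sq le' (by rcases h.hk with rfl | rfl <;> decide +kernel)
    (by rcases h.hk with rfl | rfl <;> decide +kernel)
  have sg : ∀ {g : G} (a : Bool × Bool × Bool), Lf z f g (eps 1 (tb k) (ub k) (vb k) (false, a)) →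
      ∃ s, g = eps z t u v (s, a) := fun a q => (h.eq_or q (l _)).elim (fun e => ⟨_, e⟩) fun e =>
    ⟨true, by rw [e, (l _).cz]; simp [eps, bp, mul_assoc]⟩
  obtain ⟨s, hs⟩ := sg (true, false, true) ((h.conj le lv).cast
    (by rcases h.hk with rfl | rfl <;> decide +kernel))
  obtain ⟨s', hs'⟩ := sg (true, true, false) ((h.conj le' h.lt).cast
    (by rcases h.hk with rfl | rfl <;> decide +kernel))
  have cj' : ∀ {g w : G}, g ∈ 𝒞₁ w → g * w * g⁻¹ = w := fun q => mul_inv_eq_iff_eq_mul.2 (mem_cent1.1 q)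
  have A : ∀ i, Act (eps z t u v) (![x2 * x3, β, e, e'] i) (gn s s' i) := fun i => by
    fin_cases i
    · exact E.act rfl (by simpa [eps, bp] using cj' h.bV.1) (by simpa [eps, bp] using cj' h.bV.2)
        (by simpa [eps, bp] using hv) (by simpa [eps, bp] using bv)
    · exact E.act rfl (by simpa [eps, bp] using r.z') (by simpa [eps, bp] using r.t')
        (by simpa [eps, bp] using bu) (by simpa [eps, bp] using βv)
    · refine E.act rfl (by simpa [eps, bp] using cj' le.mem) ?_ ?_ hs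
      · simpa [eps, bp] using mul_inv_eq_iff_eq_mul.2 (keep ee h.it.1.2 (h.sq (h.mul le h.lt)
          (by rcases h.hk with rfl | rfl <;> decide +kernel)
          (by rcases h.hk with rfl | rfl <;> decide +kernel)))
      · simpa [eps, bp] using (flip ee h.zz hx.sq (h.sq8 (h.mul le hu)
          (by rcases h.hk with rfl | rfl <;> decide +kernel)
          (by rcases h.hk with rfl | rfl <;> decide +kernel))).trans hu.cz
    · refine E.act rfl (by simpa [eps, bp] using cj' le'.mem) hs' ?_ ?_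
      · simpa [eps, bp] using mul_inv_eq_iff_eq_mul.2 (keep ee' hx.sq (h.sq (h.mul le' hu)
          (by rcases h.hk with rfl | rfl <;> decide +kernel)
          (by rcases h.hk with rfl | rfl <;> decide +kernel)))
      · simpa [eps, bp] using (flip ee' h.zz xv.sq (h.sq8 (h.mul le' lv)
          (by rcases h.hk with rfl | rfl <;> decide +kernel)
          (by rcases h.hk with rfl | rfl <;> decide +kernel))).trans lv.cz
  obtain ⟨⟨l1, l2, g1⟩, l3, l4, g2⟩ := good s s'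
  have r1 := E.rk (act_wp A _) (act_wp A _) (act_wp A _) g1
  have r2 := E.rk (act_wp A _) (act_wp A _) (act_wp A _) g2
  refine ⟨β, r, hb, ?_, ⟨u, mem_cent1.2 (mul_inv_eq_iff_eq_mul.1 bu).symm, v,
    mem_cent1.2 (mul_inv_eq_iff_eq_mul.1 βv).symm, ⟨hx.ne, hx.sq⟩, ⟨xv.ne, xv.sq⟩, fun q =>
      absurd (hu.uq (q ▸ lv)) (by rcases h.hk with rfl | rfl <;> decide +kernel), c⟩,
    by simpa using r1, ?_⟩
  · have d : (∀ a, wp (gn s s') [1, 1, 1] a = a) ∧ ∀ c, wp (gn s s') [1, 0] c = c → c = o4 :=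
      ⟨by cases s <;> cases s' <;> decide +kernel, g1.2.1⟩
    have := E.eq_of (act_wp A _) d.2 (act_wp A [1, 1, 1]) (m := 1) (π₂ := fun a => a)
      (fun a => by simp) d.1 ?_ (one_mem _)
    · simpa [pow_succ, mul_assoc] using this
    · have : β ∈ 𝒞₁ (β * (x2 * x3)) := mem_cent1.2 (by rw [mul_assoc β, ← hb])
      simpa using mul_mem this (mul_mem this this)
  · rw [inv_eq_of_mul_eq_one_left (show x2 * x3 * (x2 * x3) * (x2 * x3) = 1 by
      rw [← h.ob, pow_succ, sq])]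
    simpa using r2

theorem caseA (hU : UU x1 ≤ zpowers x1) : False := by
  have cx : 𝒞₁ x1 ≤ 𝒞₁ z := (rank1' h.up.nrk h.up.zx h.ivo).trans
    (sup_le (hU.trans (zpowers_le.2 h.l1.mem)) inf_le_right)
  obtain ⟨P, hP, aP⟩ := exists_isSyl_ge h.elA.pgroup h.AC
  have sP : IsSyl 3 P ⊤ := IsSyl.of_normalizer (hP.mono (le_inf le_top (le_norm P)) fun g hg => by
    obtain ⟨c, c1, c2⟩ := h.fus1 (hP.le (conj_mem_of_norm hg.2 (aP m1)))
    exact (mul_mem_cancel_left (inv_mem c1)).1 (cx (mem_cent1.2 (mul_inv_eq_iff_eq_mul.1 (by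
      rw [show c⁻¹ * g * x1 * (c⁻¹ * g)⁻¹ = c⁻¹ * (g * x1 * g⁻¹) * c by group, ← c2]; group)))))
  obtain ⟨β, r, hb, o, r1, r2, r3⟩ := h.rkB
  have nb : β ∉ zpowers (x2 * x3) := fun q => h.it.2 (by
    rw [← r.z', mem_cent1.1 (zpowers_le.2 h.lb.mem q), mul_inv_cancel_right])
  have cb : zpowers β ≤ 𝒞 (zpowers (x2 * x3)) := cent_zpowers (x2 * x3) ▸ zpowers_le.2 (mem_cent1.2 hb)
  have el := (elem_zpowers o).sup (elem_zpowers h.ob) cb
  have b3 := card3 o fun e => nb (e ▸ one_mem _)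
  have c9 : ♯(zpowers β ⊔ zpowers (x2 * x3)) = 9 := by
    rw [card_sup_of_inf (le_norm_of_le_cent (cent_symm cb)) (inf_eq_bot_of_prime (by rw [b3]; decide)
      fun q => nb (q (mem_zpowers _))), b3, card3 h.ob h.nb]
  have iv : ∀ {y : G}, Rk2 (𝒞₁ y) → Rk2 (𝒞₁ y⁻¹) := fun q =>
    q.mono (cent1_le_of_mem_zpowers (inv_mem (mem_zpowers _)))
  have rb := h.rkV h.bV.1 h.bV.2
  have all : ∀ w ∈ zpowers β ⊔ zpowers (x2 * x3), w ≠ 1 → Rk2 (𝒞₁ w) := fun w hw w1 => by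
    obtain ⟨a, ha, c, hc, rfl⟩ := (mem_sup_l (le_norm_of_le_cent (cent_symm cb))).1 hw
    have cm : Commute β (x2 * x3) := hb
    rcases mem_zp3 o ha with rfl | rfl | rfl <;> rcases mem_zp3 h.ob hc with rfl | rfl | rfl
    · simp at w1
    · rwa [one_mul]
    · rw [one_mul]; exact iv rb
    · rwa [mul_one]
    · exact r2
    · exact r3
    · rw [mul_one]; exact iv r1
    · simpa [cm.inv_left.eq] using iv r3
    · rw [← mul_inv_rev, ← hb]; exact iv r2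
  obtain ⟨g, -, hg⟩ := sP.exists_cj_le el.pgroup le_top
  have le := hg.trans hP.le
  have c9' := (card_cj g _).trans c9
  refine absurd (nine_dvd (m := 6) ((h.card_dn le (h.ivo.not_mem (by rw [c9']; decide))).trans c9')
    fun σ hσ s1 => ?_) (by decide)
  obtain ⟨a, a1, a2⟩ := h.of_dn hσ
  have a3 : a ≠ 1 := fun e => s1 (a2.uq (e ▸ h.one))
  obtain ⟨w, w1, rfl⟩ : ∃ w ∈ _, g * w * g⁻¹ = a := ⟨_, mem_cj.1 a1, by group⟩
  exact a2.eq ▸ h.rk6 a2.mem (by rw [conj_pow, el.pow w1]; simp) a3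
    (rk2_conj (all w w1 fun e => a3 (by simp [e])) g)

end Fr

end Cfsg.H2.DC
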