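import Cfsg.Agent.H2.DC7

/-! The case `|O(C(x))| = 3⁵`: the structure of the core. -/

set_option autoImplicit false
set_option linter.unusedSectionVars false

namespace Cfsg.H2.DC

open Subgroup Cfsg.L0 Cfsg.H8 Cfsg.FT Cfsg.BS Cfsg.BS.R Equiv Equiv.Perm
open scoped commutatorElement

variable {G : Type} [Group G] [Finite G] {M Y A I P R W : Subgroup G} {S : Set G}
  {a b c d e g i j s t u v w x y z : G}

/-- the core has order `3⁵` -/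
structure U5 (z x : G) : Prop extends UP z x where
  cU : ♯(UU x) = 243

namespace U5
variable (h : U5 z x)
include h

theorem p3 : IsPGroup 3 (UU x) := IsPGroup.of_card (n := 5) h.cU
theorem nle : ¬ UU x ≤ zpowers x := fun q => absurd (h.cU ▸ h.c3 ▸ card_le q) (by decide)

theorem cP (hP : P ≤ UU x) (hx : x ∈ P) : ♯P = 3 * (𝒞₁ z).relIndex P := by
  rw [← card_inf_mul_ri (𝒞₁ z) P, le_antisymm ((le_inf (inf_le_right.trans hP) inf_le_left).trans h.UC)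
    (zpowers_le.2 ⟨h.mem, hx⟩), h.c3]

theorem n80 : {i | InK (UU x) z i ∧ i ≠ 1}.ncard = 80 := by
  have := h.cP le_rfl (h.xU (mem_zpowers x))
  have := ncard_inv (P := UU x) (odd_O2 _) h.zz h.zU
  have := h.cU
  omega

theorem five : ∃ R : Subgroup G, R ≤ 𝒞₁ x ⊓ 𝒞₁ z ∧ ♯R = 5 ∧ UU x ⊓ 𝒞 R ≤ zpowers x := by
  obtain ⟨R, r1, r2⟩ := exists_card_eq Nat.prime_five (Dvd.dvd.trans (by decide) h.dv)
  obtain ⟨r3, r4⟩ := h.red Nat.prime_five (by decide) r1 r2 le_rfl (inf_le_left.trans (UU_norm x)) h.nle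
  have e : ♯(UU x) = 3 ^ 5 := h.cU
  obtain ⟨d, d1, d2⟩ := arith2 Nat.prime_three (e ▸ card_dvd (inf_le_left (b := 𝒞 R))) (e ▸ r3)
  refine ⟨R, r1, r2, (eq_of_card_le (le_inf h.xU (cent_symm (cent_zpowers x ▸ r1.trans inf_le_left))) ?_).ge⟩
  rw [d2, e] at r4
  rw [d2, h.c3]
  interval_cases d <;> first | decide | exact absurd r4 (by decide)

theorem tr (hi : InK (UU x) z i) (i1 : i ≠ 1) (hj : InK (UU x) z j) (j1 : j ≠ 1) :
    ∃ g ∈ 𝒞₁ x ⊓ 𝒞₁ z, g * i * g⁻¹ = j := by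
  have sub : {y | ∃ g ∈ 𝒞₁ x ⊓ 𝒞₁ z, g * i * g⁻¹ = y} ⊆ {i | InK (UU x) z i ∧ i ≠ 1} := by
    rintro _ ⟨g, hg, rfl⟩
    exact ⟨InK.conj hi hg.2 (UU_norm x hg.1), by simpa using i1⟩
  have cl : ∀ {A : Subgroup G}, A ≤ 𝒞₁ x ⊓ 𝒞₁ z → ∀ a ∈ A, ∀ y ∈ {y | ∃ g ∈ 𝒞₁ x ⊓ 𝒞₁ z, g * i * g⁻¹ = y},
      a * y * a⁻¹ ∈ {y | ∃ g ∈ 𝒞₁ x ⊓ 𝒞₁ z, g * i * g⁻¹ = y} := by
    rintro A hA a ha _ ⟨g, hg, rfl⟩
    exact ⟨a * g, mul_mem (hA ha) hg, by group⟩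
  obtain ⟨S, s1, s2, s3⟩ := h.syl2
  obtain ⟨R, r1, r2, r3⟩ := h.five
  have d1 := s3.trans (dvd_free (cl s1) fun a ha y hy e => h.free2 s1 s2 ha (sub hy).1 (sub hy).2 e)
  have d2 := dvd_free (cl r1) fun a ha y hy e => by_contra fun q => (sub hy).2 (eq_one_of_inv_comm
    (UU_odd (sub hy).1.1) h.zz (sub hy).1.2 (mem_cent1.1 (zpowers_le.2 h.mem (r3 ⟨(sub hy).1.1, by
      rw [cent_eq_cent1_of_prime (by rw [r2]; decide) ha q]; exact mem_cent1.2 e.symm⟩))).symm)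
  have pos := (Set.ncard_pos (s := {y | ∃ g ∈ 𝒞₁ x ⊓ 𝒞₁ z, g * i * g⁻¹ = y})).2 ⟨i, 1, one_mem _, by simp⟩
  rw [r2] at d2
  exact (Set.eq_of_subset_of_ncard_le sub (by rw [h.n80]; omega)).ge ⟨hj, j1⟩

theorem o3 (hi : InK (UU x) z i) : i ^ 3 = 1 := by
  by_cases q : i = 1
  · rw [q, one_pow]
  obtain ⟨y, y1, y2, y3⟩ := exists_inv_prime h.zz q hi.2
  have m := zpowers_le.2 hi.1 y1
  obtain ⟨g, -, rfl⟩ := h.tr ⟨m, y3⟩ (fun e => y2.ne_one (by rw [e, orderOf_one])) hi q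
  rw [conj_pow, ← eq_of_dvd_pgroup y2 Nat.prime_three h.p3 (orderOf_dvd m), pow_orderOf_eq_one]; simp

theorem q4 (hs : s * s = z) (h1 : s ∈ 𝒞₁ x) (hP : P ≤ UU x) (hn : s ∈ 𝒩 P) :
    (𝒞₁ z).relIndex P = 1 ∨ (𝒞₁ z).relIndex P = 9 ∨ (𝒞₁ z).relIndex P = 81 := by
  have o : orderOf s = 2 ^ (1 + 1) := orderOf_eq_prime_pow (by rw [pow_one, sq, hs]; exact h.iz.1)
    (by rw [show 2 ^ (1 + 1) = 2 * 2 from rfl, pow_mul, sq s, hs, sq, h.zz])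
  obtain ⟨m, m1, m2⟩ := h.dvd_ri (A := zpowers s) (zpowers_le.2 ⟨h1, mem_cent1.2 (by rw [← hs, mul_assoc])⟩)
    (IsPGroup.of_card ((card_zpow s).trans o)) hP (zpowers_le.2 hn) (hs ▸ mul_mem hn hn)
  obtain ⟨a, a1, ha⟩ := (Nat.dvd_prime_pow Nat.prime_three (m := 5)).1
    ((ri_dvd_card (𝒞₁ z) P).trans ((card_dvd hP).trans h.cU.dvd))
  rw [card_zpow, o] at m1
  rw [ha] at m2 ⊢
  interval_cases a <;> omega

theorem abel (hi : InK (UU x) z i) (i1 : i ≠ 1) (hc : UU x ≤ 𝒞₁ i) : Abel (UU x) := fun u hu => by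
  obtain ⟨c, c1, j, j1, rfl⟩ := h.dec' hu
  refine mul_mem (cent_symm (cent_zpowers x ▸ UU_le x) c1) ?_
  by_cases q : j = 1
  · rw [q]; exact one_mem _
  obtain ⟨g, g1, rfl⟩ := h.tr hi i1 j1 q
  rw [← cj_eq_of_mem_norm (UU_norm x g1.1), ← cj_cent]
  exact conj_mem_cj (le_cent1_iff.1 hc)

theorem nc (hy : y ∈ 𝒞₁ x ⊓ 𝒞₁ z) (h1 : UU x ≤ 𝒞₁ y) : y ∈ zpowers x :=
  h.lem _ ((Nrm.refl _).inf_cent (inf_le_left.trans (UU_norm x))) (fun m =>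
    h.nle ((le_inf le_rfl (le_cent1_iff.2 m.2)).trans h.UC)) ⟨hy, le_cent1_iff.1 h1⟩

theorem k1 (hy : y ∈ 𝒞₁ x ⊓ 𝒞₁ z) (hu : u ∈ UU x) (h1 : ⁅u, y⁆ ∈ zpowers x) : u ∈ 𝒞₁ y := by
  obtain ⟨c, c1, i, i1, rfl⟩ := h.dec' hu
  have cy : c ∈ 𝒞₁ y := zpowers_le.2 (mem_cent1_comm.1 hy.1) c1
  refine mul_mem cy ?_
  have e : ⁅c * i, y⁆ = ⁅i, y⁆ := by
    rw [show ⁅c * i, y⁆ = c * (⁅i, y⁆ * y) * c⁻¹ * y⁻¹ by simp only [commutatorElement_def]; group,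
      mul_inv_eq_iff_eq_mul.2 (mem_cent1.1 (mem_cent1_comm.1 (mul_mem (mem_cent1.2 (UP.cm (mul_mem
        (mul_mem i1.1 (conj_mem_of_norm (UU_norm x hy.1) (inv_mem i1.1))) (one_mem _) |> fun q => by
          simpa [commutatorElement_def, mul_assoc] using q) c1).symm) (mem_cent1_comm.1 cy)))),
      mul_inv_cancel_right]
  rw [e] at h1
  have e1 : i * y * i⁻¹ = ⁅i, y⁆ * y := by simp [commutatorElement_def]
  have e2 : i⁻¹ * y * i = ⁅i, y⁆ * y := by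
    have := congrArg (fun w => z * w * z) e1
    have zi : z * i⁻¹ * z = i := by rw [← i1.2, ← mul_assoc, ← mul_assoc, h.zz, one_mul, mul_assoc, h.zz, mul_one]
    rwa [show z * (i * y * i⁻¹) * z = z * i * 1 * y * 1 * i⁻¹ * z by group, ← h.zz,
      show z * i * (z * z) * y * (z * z) * i⁻¹ * z = z * i * z * (z * y * z) * (z * i⁻¹ * z) by group,
      i1.2, zi, ← mem_cent1.1 hy.2, mul_assoc y, h.zz, mul_one,
      ← mem_cent1.1 (mul_mem (zpowers_le.2 h.mem h1) hy.2), mul_assoc _ z, h.zz, mul_one] at this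
  exact mem_cent1.2 (commute_of_commute_sq (a := y) (UU_odd i1.1) (by
    show y * i ^ 2 = i ^ 2 * y
    rw [← e2] at e1
    rw [sq, mul_assoc, mul_inv_eq_iff_eq_mul.1 e1]; group)).symm

end U5

/-- the elements stabilizing the chain `I ≤ I S` -/
def YY (I : Subgroup G) (S : Set G) : Subgroup G where
  carrier := {g | g ∈ 𝒞 I ∧ ∀ a ∈ S, ⁅g, a⁆ ∈ I}
  one_mem' := ⟨one_mem _, fun a _ => by simp⟩
  mul_mem' := fun {g l} hg hl => ⟨mul_mem hg.1 hl.1, fun a ha => by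
    rw [show ⁅g * l, a⁆ = g * ⁅l, a⁆ * (a * g⁻¹ * a⁻¹) by simp only [commutatorElement_def]; group,
      ← mem_cent.1 hg.1 _ (hl.2 a ha)]
    simpa [commutatorElement_def, mul_assoc] using mul_mem (hl.2 a ha) (hg.2 a ha)⟩
  inv_mem' := fun {g} hg => ⟨inv_mem hg.1, fun a ha => by
    rw [show ⁅g⁻¹, a⁆ = g⁻¹ * (⁅g, a⁆⁻¹ * g) by simp only [commutatorElement_def]; group,
      mem_cent.1 hg.1 _ (inv_mem (hg.2 a ha)), inv_mul_cancel_left]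
    exact inv_mem (hg.2 a ha)⟩

theorem YY_norm (h1 : g ∈ 𝒩 I) (h2 : g ∈ 𝒩 A) : g ∈ 𝒩 (YY I A) :=
  mem_normalizer_of_forall fun y hy => ⟨conj_mem_of_norm (norm_le_norm_cent I h1) hy.1, fun a ha => by
    have := conj_mem_of_norm h1 (hy.2 _ (conj_mem_of_norm' h2 ha))
    rwa [show g * ⁅y, g⁻¹ * a * g⁆ * g⁻¹ = ⁅g * y * g⁻¹, a⁆ by
      simp only [commutatorElement_def]; group] at this⟩

theorem ri_YY (hY : Y ≤ YY I S) (hb : b ∈ S) : (𝒞₁ b).relIndex Y ≤ ♯I := by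
  rw [← card_conj]
  exact Nat.card_le_card_of_injective (fun q => (⟨q.1 * b⁻¹, let ⟨_, h1, h2⟩ := q.2; h2 ▸ (hY h1).2 b hb⟩ : I))
    fun _ _ e => Subtype.ext (mul_right_cancel (congrArg Subtype.val e))

/-- elements of odd order inverted by `v` which centralize the elements of odd order of `C(v, b)` -/
structure II (v b g : G) : Prop where
  o : Odd (orderOf g)
  i : v * g * v = g⁻¹
  c : ∀ a, Odd (orderOf a) → a ∈ 𝒞₁ v → a ∈ 𝒞₁ b → a * g = g * a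

omit [Finite G] in
theorem II.conj (h : II v b d) (g : G) : II (g * v * g⁻¹) (g * b * g⁻¹) (g * d * g⁻¹) :=
  ⟨by rw [orderOf_cj]; exact h.o, by rw [conj_mul, conj_mul, h.i, conj_inv], fun a h1 h2 h3 => by
    rw [← cj_cent1, mem_cj] at h2 h3
    have := h.c _ (by rwa [← orderOf_cj g⁻¹, inv_inv] at h1) h2 h3
    rw [show a * (g * d * g⁻¹) = g * (g⁻¹ * a * g * d) * g⁻¹ by group, this]; group⟩

omit [Finite G] in
theorem II.binv (h : II v b⁻¹ d) : II v b d :=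
  ⟨h.o, h.i, fun a h1 h2 h3 => h.c a h1 h2 (cent1_le_of_mem_zpowers (inv_mem (mem_zpowers b)) h3)⟩

end Cfsg.H2.DC
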