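import Cfsg.Agent.H2.DC8

/-! The case `|O(C(x))| = 3⁵` is impossible. -/

set_option autoImplicit false
set_option linter.unusedSectionVars false

namespace Cfsg.H2.DC

open Subgroup Cfsg.L0 Cfsg.H8 Cfsg.FT Cfsg.BS Cfsg.BS.R Equiv Equiv.Perm
open scoped commutatorElement

variable {G : Type} [Group G] [Finite G] {k : ℕ} {z t a b c d e g i j s u v w x y x1 x2 x3 β : G}
  {f : G → Perm (Fin (k + 9))} {M P W : Subgroup G}

theorem Fr.exs (h : Fr z f x1 x2 x3 t) : ∃ s, s * s = z ∧ s ∈ 𝒞₁ x1 ∧ s * x2 * s⁻¹ = x2⁻¹ ∧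
    s * x3 * s⁻¹ = x3⁻¹ ∧ s * t * s⁻¹ = t * z := by
  obtain ⟨s, l⟩ := h.ex (σ := sb k) (by rcases h.hk with rfl | rfl <;> decide +kernel)
  have e := h.sq l (by rcases h.hk with rfl | rfl <;> decide +kernel)
    (by rcases h.hk with rfl | rfl <;> decide +kernel)
  exact ⟨s, e, mem_cent1.2 (h.comm3 l h.l1 h.o1 (by rcases h.hk with rfl | rfl <;> decide +kernel)),
    h.conj_eq3 l h.l2 (h.inv h.l2) h.o2 (by rw [inv_pow, h.o2, inv_one])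
      (by rcases h.hk with rfl | rfl <;> decide +kernel),
    h.conj_eq3 l h.l3 (h.inv h.l3) h.o3 (by rw [inv_pow, h.o3, inv_one])
      (by rcases h.hk with rfl | rfl <;> decide +kernel),
    flip e h.zz h.it.1.2 (h.sq8 (h.mul l h.lt) (by rcases h.hk with rfl | rfl <;> decide +kernel)
      (by rcases h.hk with rfl | rfl <;> decide +kernel))⟩

/-- a frame with a core of order `3⁵` -/
structure F5 (z : G) (f : G → Perm (Fin (k + 9))) (x1 x2 x3 t : G) : Prop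
    extends Fr z f x1 x2 x3 t where
  k0 : k = 0
  cU : ♯(UU x1) = 243

namespace F5
variable (h : F5 z f x1 x2 x3 t)
include h

theorem u5 : U5 z x1 := ⟨h.up, h.cU⟩

theorem cj (g : G) : F5 (g * z * g⁻¹) (fun a => f (g⁻¹ * a * g)) (g * x1 * g⁻¹) (g * x2 * g⁻¹)
    (g * x3 * g⁻¹) (g * t * g⁻¹) := ⟨h.toFr.cj g, h.k0, by rw [← cj_UU, card_cj, h.cU]⟩

theorem sw12 : ∃ (f' : G → Perm (Fin (k + 9))) (t' : G), F5 z f' x2 x1 x3⁻¹ t' := by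
  obtain ⟨w, l⟩ := h.ex (σ := swap 0 3 * swap 1 4 * swap 2 5 * swap 6 7)
    (by rcases h.hk with rfl | rfl <;> decide +kernel)
  have := h.cj w
  rw [mul_inv_eq_iff_eq_mul.2 l.cz,
    h.conj_eq3 l h.l1 h.l2 h.o1 h.o2 (by rcases h.hk with rfl | rfl <;> decide +kernel),
    h.conj_eq3 l h.l2 h.l1 h.o2 h.o1 (by rcases h.hk with rfl | rfl <;> decide +kernel),
    h.conj_eq3 l h.l3 (h.inv h.l3) h.o3 (by rw [inv_pow, h.o3, inv_one])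
      (by rcases h.hk with rfl | rfl <;> decide +kernel)] at this
  exact ⟨_, _, this⟩

theorem sw23 : ∃ (f' : G → Perm (Fin (k + 9))) (t' : G), F5 z f' x1⁻¹ x3 x2 t' := by
  have := h.cj t
  rw [mul_inv_eq_iff_eq_mul.2 h.lt.cz, h.tx1, h.tx2, h.tx3] at this
  exact ⟨_, _, this⟩

theorem u2 : U5 z x2 := let ⟨_, _, q⟩ := h.sw12; q.u5

theorem nbI (hi : InK (UU x1) z i) (i1 : i ≠ 1) : ¬ Big i := by
  have key : ∀ v ∈ 𝒞₁ z, Ivo v → v * x1 * v⁻¹ = x1⁻¹ → 9 ≤ ♯(UU x1 ⊓ 𝒞₁ v) → ¬ Big i := fun v a b c d => by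
    obtain ⟨W, -, w1, w2⟩ := exists_between (k := 2) Nat.prime_three (h.u5.p3.to_le inf_le_left) bot_le
      (by rw [card_bot']; decide) d
    obtain ⟨f', h'⟩ := h.at' a b
    exact h'.pure (w1.trans inf_le_right) w2 (h.u5.o3 hi) fun w hw q => (h.u5.tr hi i1
      ⟨(w1 hw).1, h.up.inv_of c le_rfl (Fr.nW a h.up.zU) (w1 hw)⟩ q).imp fun _ r => r.2
  have := h.riP le_rfl h.up.zU (UU_norm' h.tx1)
  have e := h.u5.cP le_rfl (h.up.xU (mem_zpowers _))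
  rw [h.cU] at e
  by_cases q : 9 ≤ ♯(UU x1 ⊓ 𝒞₁ t)
  · exact key t h.lt.mem h.it.1 h.tx1 q
  · exact key _ h.ztC h.izt h.ztx (by nlinarith)

theorem bigfix {p : Fin (k + 9)} (hy : y ∈ AA x1 x2 x3) (h1 : y ≠ 1) (hp : f y p = p) : Big y :=
  h.big_of' (h.AC hy) (h.elA.pow hy) h1 fun q => by
    have := Finset.card_lt_univ_of_notMem (notMem_support.2 hp)
    rw [q, Fintype.card_fin, h.k0] at this
    exact absurd this (by decide)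

theorem Iz : UU x1 ⊓ UU x2 ⊓ 𝒞₁ z = ⊥ := eq_bot_iff.2 ((le_inf
  ((inf_le_inf_right _ inf_le_right).trans h.u2.UC) ((inf_le_inf_right _ inf_le_left).trans h.up.UC)).trans
    (inf_eq_bot_of_prime (by rw [h.u2.c3]; decide) fun q => h.n21 (q (mem_zpowers _))).le)

theorem nI (h1 : g ∈ 𝒩 (UU x1)) (h2 : g ∈ 𝒩 (UU x2)) : g ∈ 𝒩 (UU x1 ⊓ UU x2) :=
  le_norm_inf (zpowers_le.2 h1) (zpowers_le.2 h2) (mem_zpowers g)

theorem invI (hi : i ∈ UU x1 ⊓ UU x2) : z * i * z = i⁻¹ := by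
  obtain ⟨c, c1, l, l1, rfl⟩ := dec (odd_of_le (odd_O2 _) inf_le_left) h.zz (h.nI h.up.zU h.u2.zU) hi
  rw [eq_one_of_mem h.Iz c1, one_mul, l1.2]

theorem x2K : x2 ∈ 𝒞₁ x1 ⊓ 𝒞₁ z := ⟨mem_cent1.2 h.c12.symm, h.l2.mem⟩
theorem nc2 : ¬ UU x1 ≤ 𝒞₁ x2 := fun q => h.n21 (h.u5.nc h.x2K q)
theorem x1J : x1 ∈ UU x1 ⊓ 𝒞₁ x2 := ⟨h.up.xU (mem_zpowers _), mem_cent1.2 h.c12⟩

theorem decJ (hj : j ∈ UU x1 ⊓ 𝒞₁ x2) : ∃ c ∈ zpowers x1, ∃ i ∈ UU x1 ⊓ UU x2, j = c * i := by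
  obtain ⟨c, c1, l, l1, e⟩ := dec (odd_of_le (odd_O2 _) inf_le_left) h.zz (Fr.nW h.l2.mem h.up.zU) hj
  exact ⟨c, h.up.UC ⟨c1.1.1, c1.2⟩, l, ⟨l1.1.1, h.u2.memU (UU_odd l1.1.1) l1.1.2 l1.2⟩, e⟩

theorem q4I (hs : s * s = z) (h1 : s ∈ 𝒞₁ x1) (hP : P ≤ UU x1 ⊓ UU x2) (hn : s ∈ 𝒩 P) :
    ♯P = 1 ∨ ♯P = 9 ∨ ♯P = 81 := by
  have := h.u5.q4 hs h1 (hP.trans inf_le_left) hn
  rwa [← inf_relIndex_right, eq_bot_of_le h.Iz (le_inf (inf_le_right.trans hP) inf_le_left),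
    relIndex_bot_left] at this

theorem cI : ♯(UU x1 ⊓ UU x2) = 9 ∧ ♯(UU x1 ⊓ 𝒞₁ x2) = 27 := by
  obtain ⟨s, s1, s2, s3, -⟩ := h.exs
  have e : UU x1 ⊓ 𝒞₁ x2 = UU x1 ⊓ UU x2 ⊔ zpowers x1 := le_antisymm (fun j hj => by
    obtain ⟨c, c1, i, i1, rfl⟩ := h.decJ hj
    exact mul_mem (mem_sup_right c1) (mem_sup_left i1))
    (sup_le (inf_le_inf_left _ (UU_le x2)) (zpowers_le.2 h.x1J))
  have c := card_sup_of_inf (zpowers_le.2 (h.nI (UU_norm _ (self_mem_cent1 _)) (UU_norm _ h.x1J.2)))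
    (eq_bot_of_le h.Iz (inf_le_inf_left _ (zpowers_le.2 h.l1.mem)))
  rw [← e, h.up.c3] at c
  rcases h.q4I s1 s2 le_rfl (h.nI (UU_norm _ s2) (UU_norm' s3)) with q | q | q
  · have := dvd_free (A := zpowers x2) (Y := {i | InK (UU x1) z i ∧ i ≠ 1})
      (fun a ha _ hi => ⟨InK.conj hi.1 (zpowers_le.2 h.x2K ha).2 (UU_norm _ (zpowers_le.2 h.x2K ha).1),
        by simpa using hi.2⟩) fun a ha y hy e => by_contra fun r => hy.2 (eq_one_of_mem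
          (card_eq_one_iff.1 q) ⟨hy.1.1, h.u2.memU (UU_odd hy.1.1) (by
            rw [← cent_zpowers, cent_eq_cent1_of_prime (by rw [h.u2.c3]; decide) ha r]
            exact mem_cent1.2 e.symm) hy.1.2⟩)
    rw [h.u5.n80, h.u2.c3] at this
    exact absurd this (by decide)
  · exact ⟨q, by rw [c, q]⟩
  · exact absurd (inf_eq_left.1 (eq_of_card_le inf_le_left (by rw [c, q, h.cU]))) h.nc2

theorem IA : UU x1 ⊓ UU x2 ≤ 𝒞 (AA x1 x2 x3) := by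
  obtain ⟨s, s1, s2, s3, s4, -⟩ := h.exs
  have n := h.nI (UU_norm _ s2) (UU_norm' s3)
  have := inf_cent_ne_bot_of_pgroup Nat.prime_three (elem_zpowers h.o3).pgroup
    (h.u5.p3.to_le inf_le_left) (zpowers_le.2 (h.nI (UU_norm _ (mem_cent1.2 h.c13.symm))
      (UU_norm _ (mem_cent1.2 h.c23.symm)))) (ne_bot_of_card (by rw [h.cI.1]; decide))
  rw [cent_zpowers] at this
  have le := card_le (inf_le_left (a := UU x1 ⊓ UU x2) (b := 𝒞₁ x3))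
  refine cent_symm (AA_le (le_cent1_iff.1 (inf_le_left.trans (UU_le _)))
    (le_cent1_iff.1 (inf_le_right.trans (UU_le _))) (le_cent1_iff.1 (inf_eq_left.1
      (eq_of_card_le inf_le_left ?_))))
  rcases h.q4I s1 s2 inf_le_left (le_norm_inf (zpowers_le.2 n) (zpowers_le.2 (mem_norm_c1
    (conj_mem_zp_of_inv s4))) (mem_zpowers s)) with q | q | q
  · exact absurd (card_eq_one_iff.1 q) this
  · rw [q, h.cI.1]
  · rw [q, h.cI.1]; decide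

theorem AO (ha : a ∈ AA x1 x2 x3) : Odd (orderOf a) ∧ a ∈ 𝒞₁ z ∧ a ∈ 𝒞₁ (x2 * x3) :=
  ⟨odd3 (h.elA.pow ha), h.AC ha, mem_cent1.2 (h.elA.abel.comm ha (mul_mem m2 m3))⟩

theorem memI : i ∈ UU x1 ⊓ UU x2 ↔ II z (x2 * x3) i :=
  ⟨fun q => ⟨UU_odd q.1, h.invI q, fun _ a1 a2 a3 =>
      mem_cent.1 (h.IA q) _ (h.centb h.k0 a2 a1 (mem_cent1.1 a3))⟩, fun q =>
    have c : ∀ a ∈ AA x1 x2 x3, i ∈ 𝒞₁ a := fun a ha =>
      mem_cent1.2 (q.c a (h.AO ha).1 (h.AO ha).2.1 (h.AO ha).2.2).symm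
    ⟨h.up.memU q.o (c _ m1) q.i, h.u2.memU q.o (c _ m2) q.i⟩⟩

theorem I13 : UU x1 ⊓ UU x3 = UU x1 ⊓ UU x2 := by
  obtain ⟨_, _, q⟩ := h.sw23
  ext i
  rw [h.memI, h.c23, ← q.memI, UU_inv]

theorem dJ (hu : u ∈ UU x1) : ⁅u, x2⁆ ∈ UU x1 ⊓ 𝒞₁ x2 := by
  obtain ⟨s, s1, s2, s3, -⟩ := h.exs
  have n2 : zpowers x2 ≤ 𝒩 (UU x1) := zpowers_le.2 (UU_norm _ h.x2K.1)
  have Qc : UU x1 ⊓ 𝒞₁ x2 ⊔ zpowers x2 ≤ 𝒞₁ x2 := sup_le inf_le_right (zpowers_le.2 (self_mem_cent1 _))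
  obtain ⟨g, g1, g2⟩ := SetLike.exists_of_lt (lt_inf_normalizer (pgroup_sup n2 h.u5.p3
    (elem_zpowers h.o2).pgroup) (lt_of_le_not_ge (sup_le_sup_right (inf_le_left (b := 𝒞₁ x2)) _)
      fun q => h.nc2 (le_sup_left.trans (q.trans Qc))))
  obtain ⟨a, a1, b, b1, rfl⟩ := (mem_sup_l n2).1 g1.1
  have sQ := (le_norm_sup (le_norm_inf (zpowers_le.2 (UU_norm _ s2)) (zpowers_le.2 (mem_norm_c1
    (conj_mem_zp_of_inv s3)))) (zpowers_le.2 (mem_norm_zp (conj_mem_zp_of_inv s3))))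
  have le : UU x1 ⊓ 𝒞₁ x2 ≤ UU x1 ⊓ 𝒩 (UU x1 ⊓ 𝒞₁ x2 ⊔ zpowers x2) :=
    le_inf inf_le_left (le_norm_of_le le_sup_left)
  have lt := card_lt (lt_of_le_not_ge le fun q => g2 (mul_mem (mem_sup_left (q ⟨a1,
    (mul_mem_cancel_right (le_norm _ (mem_sup_right b1))).1 g1.2⟩)) (mem_sup_right b1)))
  have c := h.u5.cP inf_le_left (le h.x1J)
  have := h.u5.q4 s1 s2 inf_le_left (le_norm_inf (zpowers_le.2 (UU_norm _ s2)) (le_norm_norm sQ)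
    (mem_zpowers s))
  have e := inf_eq_left.1 (eq_of_card_le (inf_le_left (a := UU x1)
    (b := 𝒩 (UU x1 ⊓ 𝒞₁ x2 ⊔ zpowers x2))) (by rw [h.cI.2] at lt; rw [h.cU]; omega))
  refine ⟨?_, Qc (mul_mem (conj_mem_of_norm (e hu) (mem_sup_right (mem_zpowers _)))
    (inv_mem (mem_sup_right (mem_zpowers _))))⟩
  simpa [commutatorElement_def, mul_assoc] using
    mul_mem hu (conj_mem_of_norm (UU_norm _ h.x2K.1) (inv_mem hu))

theorem ab2 : Abel (UU x2) := by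
  obtain ⟨u, hu, u1⟩ := SetLike.not_le_iff_exists.1 h.nc2
  obtain ⟨c, hc, i, i1, e⟩ := h.decJ (h.dJ hu)
  have i2 : i ≠ 1 := fun q => u1 (h.u5.k1 h.x2K hu (by rw [e, q, mul_one]; exact hc))
  have m : c⁻¹ * x2 ∈ zpowers x1 ⊔ zpowers x2 :=
    mul_mem (inv_mem (mem_sup_left hc)) (mem_sup_right (mem_zpowers _))
  have bg : Big (i * x2) := by
    have := (h.bigfix (p := 6) (mem_sup_left m) (fun q => h.n21 (inv_mul_eq_one.1 q ▸ hc))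
      (h.mem_up.1 (sup_le ((zpowers_le (H := up h.hom (MulAction.stabilizer _ (6 : Fin (k + 9))))).2
      (h.mem_up.2 ⟨h.l1.mem, h.l1.eq ▸ (by rcases h.hk with rfl | rfl <;> decide +kernel : c1 k 6 = 6)⟩))
      (zpowers_le.2 (h.mem_up.2 ⟨h.l2.mem,
        h.l2.eq ▸ (by rcases h.hk with rfl | rfl <;> decide +kernel : c2 k 6 = 6)⟩)) m)).2).conj u
    rwa [← mul_assoc, ← UP.cm hu (inv_mem hc), show c⁻¹ * u * x2 * u⁻¹ = c⁻¹ * ⁅u, x2⁆ * x2 by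
      simp only [commutatorElement_def]; group, e, inv_mul_cancel_left] at this
  have nb := h.nbI ⟨i1.1, h.invI i1⟩ i2
  refine h.u2.abel ⟨i1.2, h.invI i1⟩ i2 fun v hv => ?_
  have ci : x2 * i = i * x2 := UP.cm i1.2 (mem_zpowers _)
  rcases mem_zp3 h.o2 (h.u2.der hv i1.2) with q | q | q
  · exact mem_cent1.2 (commutatorElement_eq_one_iff_mul_comm.1 q)
  · refine absurd ?_ nb
    rw [← conj_back v i, show v * i * v⁻¹ = ⁅v, i⁆ * i by simp [commutatorElement_def], q, ci]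
    exact bg.conj _
  · refine absurd ?_ nb
    have : v * (i * x2) * v⁻¹ = i := by
      rw [← mul_assoc, mul_assoc _ x2, UP.cm (inv_mem hv) (mem_zpowers _), ← mul_assoc,
        show v * i * v⁻¹ = ⁅v, i⁆ * i by simp [commutatorElement_def], q, mul_assoc, ← ci,
        inv_mul_cancel_left]
    exact this ▸ bg.conj v

theorem ab1 : Abel (UU x1) := let ⟨_, _, q⟩ := h.sw12; q.ab2

theorem dI (hu : u ∈ UU x1) : ⁅u, x2⁆ ∈ UU x1 ⊓ UU x2 := by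
  have d := h.dJ hu
  refine ⟨d.1, h.u2.memU (UU_odd d.1) d.2 ?_⟩
  obtain ⟨c, c1, i, i1, rfl⟩ := h.up.dec' hu
  have j := InK.conj i1 h.l2.mem (UU_norm _ h.x2K.1)
  have e : ⁅c * i, x2⁆ = i * (x2 * i * x2⁻¹)⁻¹ := by
    rw [UP.cm i1.1 c1, show ⁅i * c, x2⁆ = i * (c * x2 * c⁻¹) * i⁻¹ * x2⁻¹ by
      simp only [commutatorElement_def]; group, mul_inv_eq_iff_eq_mul.2
        (mem_cent1.1 (zpowers_le.2 h.x1J.2 c1))]; group
  rw [e, show z * (i * (x2 * i * x2⁻¹)⁻¹) * z = z * i * 1 * (x2 * i * x2⁻¹)⁻¹ * z by group, ← h.zz,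
    show z * i * (z * z) * (x2 * i * x2⁻¹)⁻¹ * z = z * i * z * (z⁻¹⁻¹ * (x2 * i * x2⁻¹)⁻¹ * z) by group,
    i1.2, ← mul_inv_rev, h.ivo.inv, ← h.ivo.inv, ← mul_inv_rev, h.ivo.inv, ← mul_assoc z, j.2, inv_inv,
    mul_inv_rev i, inv_inv, h.ab1.comm j.1 (inv_mem i1.1)]

theorem AY : AA x1 x2 x3 ⊔ UU x1 ⊓ UU x2 ≤ YY (UU x1 ⊓ UU x2) (AA x1 x2 x3) ⊓ 𝒞 (AA x1 x2 x3) := by
  have : ∀ g ∈ 𝒞 (UU x1 ⊓ UU x2), g ∈ 𝒞 (AA x1 x2 x3) →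
      g ∈ YY (UU x1 ⊓ UU x2) (AA x1 x2 x3) ⊓ 𝒞 (AA x1 x2 x3) := fun g g1 g2 => ⟨⟨g1, fun a ha =>
    commutatorElement_eq_one_iff_mul_comm.2 (mem_cent.1 g2 a ha).symm ▸ one_mem _⟩, g2⟩
  exact sup_le (fun a ha => this a (cent_symm h.IA ha) (h.elA.abel ha))
    fun a ha => this a (h.ab1.mono inf_le_left ha) (h.IA ha)

theorem UY : UU x1 ≤ YY (UU x1 ⊓ UU x2) (AA x1 x2 x3) := fun u hu => by
  obtain ⟨_, _, q⟩ := h.sw23
  have d := q.dI (UU_inv x1 ▸ hu)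
  rw [UU_inv, h.I13] at d
  have key : ∀ a ∈ AA x1 x2 x3, ⁅u, a⁆ ∈ UU x1 ⊓ UU x2 → a ∈ YY (UU x1 ⊓ UU x2) {u} := fun a ha r =>
    ⟨cent_symm h.IA ha, fun _ e => e ▸ commutatorElement_inv u a ▸ inv_mem r⟩
  exact ⟨cent_anti inf_le_left (h.ab1 hu), fun a ha => commutatorElement_inv a u ▸ inv_mem
    ((AA_le (key _ m1 (commutatorElement_eq_one_iff_mul_comm.2 (mem_cent1.1 (UU_le _ hu)) ▸ one_mem _))
      (key _ m2 (h.dI hu)) (key _ m3 d) ha).2 u rfl)⟩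

theorem ri9 : (𝒞₁ x2).relIndex (UU x1) = 9 := by
  have := card_inf_mul_ri (𝒞₁ x2) (UU x1)
  rw [inf_comm, h.cI.2, h.cU] at this
  omega

theorem cY : 2187 ≤ ♯(YY (UU x1 ⊓ UU x2) (AA x1 x2 x3) ⊓ 𝒞₁ (x2 * x3)) := by
  obtain ⟨_, _, q⟩ := h.sw12
  have u2 := q.UY
  rw [inf_comm, show AA x2 x1 x3⁻¹ = AA x1 x2 x3 by rw [AA, AA, zpowers_inv, sup_comm (zpowers x2)]] at u2
  have a0 := ri_YY (le_refl (YY (UU x1 ⊓ UU x2) (AA x1 x2 x3))) (mul_mem (m2 (x1 := x1)) m3)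
  have aY := h.AY
  have u1 := h.UY
  have cJ := card_sup_of_inf (le_norm_of_le_cent h.IA) (eq_bot_of_le h.Iz
    (le_inf inf_le_right (inf_le_left.trans h.AC)))
  generalize YY (UU x1 ⊓ UU x2) (AA x1 x2 x3) = Y at u2 a0 aY u1 ⊢
  have a1 := card_inf_mul_ri (𝒞₁ (x2 * x3)) Y
  have a2 := card_inf_mul_ri (𝒞₁ x1) Y
  have a3 := card_inf_mul_ri (𝒞₁ x2) (𝒞₁ x1 ⊓ Y)
  have b2 := relIndex_le_of_le_right (H := 𝒞₁ x1) u2 FiniteIndex.index_ne_zero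
  have b3 := relIndex_le_of_le_right (H := 𝒞₁ x2) (le_inf (UU_le x1) u1) FiniteIndex.index_ne_zero
  have b4 := card_le (le_inf ((aY.trans inf_le_right).trans (cent_le_cent1 m2))
    (le_inf ((aY.trans inf_le_right).trans (cent_le_cent1 m1)) (aY.trans inf_le_left)))
  rw [q.ri9] at b2
  rw [h.ri9] at b3
  rw [cJ, h.cardA, h.cI.1] at b4
  rw [h.cI.1] at a0
  have c1 := a3 ▸ Nat.mul_le_mul b4 b3
  have c2 := a2 ▸ Nat.mul_le_mul c1 b2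
  have c3 := c2.trans (a1 ▸ Nat.mul_le_mul_left _ a0)
  rw [inf_comm]
  omega

theorem oY : Odd ♯(YY (UU x1 ⊓ UU x2) (AA x1 x2 x3)) := odd_of_no_ivo fun y hy iy => by
  have m := hy.2 _ (m1 (x1 := x1))
  have c := mem_cent.1 hy.1 _ m
  have e : ⁅y, x1⁆ * ⁅y, x1⁆ = 1 := by
    have : y * (⁅y, x1⁆ * x1) * y⁻¹ = x1 := by
      rw [show y * (⁅y, x1⁆ * x1) * y⁻¹ = y * y * x1 * (y * y)⁻¹ by
        simp only [commutatorElement_def]; group, iy.2]; group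
    rwa [← mul_assoc, ← c, show ⁅y, x1⁆ * y * x1 * y⁻¹ = ⁅y, x1⁆ * ⁅y, x1⁆ * x1 by
      simp only [commutatorElement_def]; group, mul_eq_right] at this
  obtain ⟨o, o1, rfl⟩ := rank1_conj h.up.nrk h.up.zx (mem_cent1.2 (commutatorElement_eq_one_iff_mul_comm.1
    (eq_one_of_odd (UU_odd m.1) e))) h.ivo iy
  obtain ⟨i, i1, i2⟩ := exists_ne_one (ne_bot_of_card (A := UU x1 ⊓ UU x2) (by rw [h.cI.1]; decide))
  have oi : o ∈ 𝒞₁ i := mem_cent1.2 (h.ab1.comm o1 i1.1)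
  exact i2 (eq_one_of_inv_comm (UU_odd i1.1) h.zz (h.invI i1) (mem_cent1.1 ((mul_mem_cancel_left oi).1
    ((mul_mem_cancel_right (inv_mem oi)).1 (cent_le_cent1 i1 hy.1)))))

theorem oddA {f' : G → Perm (Fin (k + 9))} {y1 y2 y3 v t' : G} (q : F5 v f' y1 y2 y3 t')
    (e : y2 * y3 = x2 * x3) (ho : Odd ♯W) (hW : W ≤ 𝒞₁ (x2 * x3)) : W ⊓ 𝒞₁ v ≤ AA y1 y2 y3 :=
  fun _ hg => q.centb q.k0 hg.2 (odd_of_mem ho hg.1) (e ▸ mem_cent1.1 (hW hg.1))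

theorem main (ho : Odd (orderOf g)) (hb : g ∈ 𝒞₁ (x2 * x3)) (hv : g ∈ 𝒞₁ t ∨ g ∈ 𝒞₁ (z * t))
    (ha : a ∈ AA x1 x2 x3) : II z (x2 * x3) ⁅g, a⁆ := by
  obtain ⟨β, r, hβ⟩ := h.beta
  have q1 := h.cj β
  have q2 := q1.cj β
  have e1 : β * x2 * β⁻¹ * (β * x3 * β⁻¹) = x2 * x3 := by rw [conj_mul, hβ, mul_inv_cancel_right]
  have e2 : β * (β * x2 * β⁻¹) * β⁻¹ * (β * (β * x3 * β⁻¹) * β⁻¹) = x2 * x3 := by
    rw [conj_mul, e1, hβ, mul_inv_cancel_right]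
  rw [r.z'] at q1 q2
  rw [r.t'] at q2
  have nY : ∀ v ∈ 𝒞₁ z ⊓ 𝒞₁ (x2 * x3), v ∈ 𝒩 (AA x1 x2 x3) →
      v ∈ 𝒩 (YY (UU x1 ⊓ UU x2) (AA x1 x2 x3) ⊓ 𝒞₁ (x2 * x3)) := fun v v1 v2 =>
    le_norm_inf (zpowers_le.2 (YY_norm (mem_normalizer_of_forall fun i hi => h.memI.2 (by
      have := (h.memI.1 hi).conj v
      rwa [mul_inv_eq_iff_eq_mul.2 (mem_cent1.1 v1.1), mul_inv_eq_iff_eq_mul.2 (mem_cent1.1 v1.2)] at this))
      v2)) (le_norm_of_le (zpowers_le.2 v1.2)) (mem_zpowers v)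
  have nz := nY z ⟨self_mem_cent1 z, mem_cent1_comm.1 h.lb.mem⟩
    (cent_le_norm _ (le_cent1_iff.1 h.AC))
  have nt := nY t ⟨h.lt.mem, mem_cent1.2 h.tb'⟩ (mem_norm_of_cj_le ((cj_le_iff t).2 (AA_le
    (mem_cj.2 (by simpa [h.tx1] using m1)) (mem_cj.2 (by simpa [h.tx2] using m3))
    (mem_cj.2 (by simpa [h.tx3] using m2)))))
  have oY := odd_of_le h.oY (inf_le_left (b := 𝒞₁ (x2 * x3)))
  have cY := h.cY
  have bY : x2 * x3 ∈ YY (UU x1 ⊓ UU x2) (AA x1 x2 x3) ⊓ 𝒞₁ (x2 * x3) :=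
    ⟨(h.AY (mem_sup_left (mul_mem m2 m3))).1, self_mem_cent1 _⟩
  have l0 := h.oddA h rfl oY inf_le_right
  have l1 := h.oddA q1 e1 oY inf_le_right
  have l2 := h.oddA q2 e2 oY inf_le_right
  suffices g ∈ YY (UU x1 ⊓ UU x2) (AA x1 x2 x3) ⊓ 𝒞₁ (x2 * x3) from h.memI.1 (this.1.2 a ha)
  generalize YY (UU x1 ⊓ UU x2) (AA x1 x2 x3) ⊓ 𝒞₁ (x2 * x3) = Y at nz nt oY cY bY l0 l1 l2
  have i3 := ri3 oY h.kp nz nt
  have k0 := card_inf_mul_ri (𝒞₁ z) Y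
  have k1 := card_inf_mul_ri (𝒞₁ z) (Y ⊓ 𝒞₁ t)
  have k2 := card_inf_mul_ri (𝒞₁ z) (Y ⊓ 𝒞₁ (z * t))
  have b0 := card_le (inf_comm Y _ ▸ l0)
  have b1 := card_le l1
  have b2 := card_le l2
  have d1 := card_le (B := 𝒞₁ z ⊓ (Y ⊓ 𝒞₁ t)) (zpowers_le.2 ⟨h.bV.1, bY, h.bV.2⟩)
  have d2 := card_le (B := 𝒞₁ z ⊓ (Y ⊓ 𝒞₁ (z * t))) (zpowers_le.2 ⟨h.bV.1, bY,
    ((Rot.inf_eq z t).ge h.bV).2⟩)
  rw [card3 h.ob h.nb] at d1 d2
  rw [h.cardA] at b0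
  have f0 := k0 ▸ Nat.mul_le_mul_right _ b0
  have f1 := k1 ▸ Nat.mul_le_mul_right _ d1
  have f2 := k2 ▸ Nat.mul_le_mul_right _ d2
  have g1 := q1.cardA
  have g2 := q2.cardA
  rcases hv with hv | hv
  · refine ((eq_of_card_le l1 ?_).ge (q1.centb h.k0 hv ho (e1 ▸ mem_cent1.1 hb))).1
    have := i3.trans (Nat.mul_le_mul_right _ (show _ ≤ 9 by omega))
    omega
  · refine ((eq_of_card_le l2 ?_).ge (q2.centb h.k0 hv ho (e2 ▸ mem_cent1.1 hb))).1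
    have := i3.trans (Nat.mul_le_mul_left _ (show _ ≤ 9 by omega))
    omega

theorem false' : False := by
  obtain ⟨β, r, hβ⟩ := h.beta
  obtain ⟨s, s1, s2, s3, s4, s5⟩ := h.exs
  have q1 := h.cj β
  have q2 := q1.cj β
  have e1 : β * x2 * β⁻¹ * (β * x3 * β⁻¹) = x2 * x3 := by rw [conj_mul, hβ, mul_inv_cancel_right]
  have e2 : β * (β * x2 * β⁻¹) * β⁻¹ * (β * (β * x3 * β⁻¹) * β⁻¹) = x2 * x3 := by
    rw [conj_mul, e1, hβ, mul_inv_cancel_right]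
  rw [r.z', r.t'] at q1 q2
  rw [r.zt h.kp] at q2
  have a1 := q1.AO m1
  have a2 := q2.AO m1
  rw [e1] at a1
  rw [e2] at a2
  have d1 := q1.main a2.1 (e1 ▸ a2.2.2) (Or.inl a2.2.1) m1
  have d2 := q2.main a1.1 (e2 ▸ a1.2.2) (Or.inr (by
    rw [mul_assoc, h.lt.cz, h.kp.sl]; exact a1.2.1)) m1
  replace d2 := q2.memI.1 (inv_mem (q2.memI.2 d2))
  rw [commutatorElement_inv, e2] at d2
  have d0 : ⁅β * (β * x1 * β⁻¹) * β⁻¹, β * x1 * β⁻¹⁆ = 1 := by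
    generalize ⁅β * (β * x1 * β⁻¹) * β⁻¹, β * x1 * β⁻¹⁆ = d at d1 d2
    have sz : s * z * s⁻¹ = z := by rw [← s1]; group
    have d3 := d2.conj s
    rw [← conj_mul, sz, s5, h.lt.cz, h.kp.sl, ← conj_mul, s3, s4, ← mul_inv_rev, ← h.c23, ← e1] at d3
    have d4 := mul_mem (q1.memI.2 d1) (q1.memI.2 d3.binv)
    rw [e1] at d1
    have dz : d⁻¹ ∈ 𝒞₁ z := mem_cent1.2 (by
      have := d2.i
      rw [show z * t * d * (z * t) = z * t * d * (t * z) by rw [h.lt.cz],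
        show z * t * d * (t * z) = z * (t * d * t) * z by group, d1.i] at this
      nth_rewrite 1 [← this]
      rw [mul_assoc, h.zz, mul_one])
    have dA := h.centb h.k0 (inv_mem_iff.1 dz) d1.o (d1.c _ (odd3 h.ob) h.bV.2 (self_mem_cent1 _)).symm
    have ab := h.elA.abel
    obtain ⟨_, p, c, hc, rfl⟩ := (mem_sup_l (le_sup_right.trans (ab.le_norm le_sup_left))).1 dA
    obtain ⟨a, ha, b, hb, rfl⟩ := (mem_sup_l ((le_sup_right.trans le_sup_left).trans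
      (ab.le_norm (le_sup_left.trans le_sup_left)))).1 p
    have e : a * b * c * (s * (a * b * c) * s⁻¹) = a * a := by
      rw [← conj_mul, ← conj_mul, inv_zpowers s3 hb, inv_zpowers s4 hc, mul_inv_eq_iff_eq_mul.2
        (mem_cent1.1 (cent1_le_of_mem_zpowers ha s2)), mul_assoc (a * b),
        ab.comm (mem_sup_right hc) (mul_mem (mul_mem (mem_sup_left (mem_sup_left ha))
          (inv_mem (mem_sup_left (mem_sup_right hb)))) (inv_mem (mem_sup_right hc))),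
        inv_mul_cancel_right, mul_assoc a, ← mul_assoc b,
        ab.comm (mem_sup_left (mem_sup_right hb)) (mem_sup_left (mem_sup_left ha))]; group
    rw [e] at d4
    obtain rfl : a = 1 := eq_one_of_odd (h.AO (mem_sup_left (mem_sup_left ha))).1 (by_contra fun q =>
      q1.nbI ⟨d4.1, q1.invI d4⟩ q (h.big1.trans (card_dvd (cent1_le_of_mem_zpowers (mul_mem ha ha)))))
    by_contra q
    refine q1.nbI ⟨(q1.memI.2 (e1 ▸ d1)).1, d1.i⟩ q (h.bigfix (p := 0) dA q (h.mem_up.1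
      (mul_mem (mul_mem (one_mem _) ((zpowers_le (H := up h.hom (MulAction.stabilizer _
        (0 : Fin (k + 9))))).2 (h.mem_up.2 ⟨h.l2.mem, h.l2.eq ▸ ?_⟩) hb))
        (zpowers_le.2 (h.mem_up.2 ⟨h.l3.mem, h.l3.eq ▸ ?_⟩) hc))).2)
    · exact (by rcases h.hk with rfl | rfl <;> decide +kernel : c2 k 0 = 0)
    · exact (by rcases h.hk with rfl | rfl <;> decide +kernel : c3 k 0 = 0)
  have zi : z * (β * x1 * β⁻¹) * z = (β * x1 * β⁻¹)⁻¹ := by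
    rw [conj_inv, ← h.ztx, show β * (z * t * x1 * (z * t)⁻¹) * β⁻¹ = β * (z * t) * β⁻¹ *
      (β * x1 * β⁻¹) * (β * (z * t) * β⁻¹)⁻¹ by group, r.zt h.kp, h.ivo.inv]
  refine h.nbI ⟨h.up.memU a1.1 (mem_cent1.2 ?_) zi, zi⟩ q1.n1 q1.big1
  have := commutatorElement_eq_one_iff_mul_comm.1 d0
  rwa [conj_mul, conj_mul, mul_left_inj, mul_right_inj] at this

end F5

theorem D9.false' (h : D9 z f) : False :=
  let ⟨_, _, _, _, q⟩ := h.fr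
  q.coreU.elim q.caseA fun r => F5.false' ⟨q, r.1, r.2⟩


end Cfsg.H2.DC
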