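/-
Isomorphisms of Sylow subgroups from a multiplication table; orders of isometry groups by chains.
-/
import Cfsg.Agent.H2.AutO
import Cfsg.Agent.H3.Small

set_option autoImplicit false

namespace Cfsg.H2

open Module

theorem sylow_equiv_of_injective {D G : Type*} [Group D] [Group G] [Finite G] {p : ℕ}
    [Fact p.Prime] (f : D →* G) (hf : Function.Injective f)
    (h : Nat.card D = p ^ (Nat.card G).factorization p) (P : Sylow p G) :
    Nonempty (D ≃* (P : Subgroup G)) :=
  ⟨(MonoidHom.ofInjective hf).trans (Sylow.equiv (Sylow.ofCard f.range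
    (by rw [← h, Nat.card_congr (MonoidHom.ofInjective hf).toEquiv])) P)⟩

theorem sylow_equiv_of_table {G₁ G₂ κ : Type*} [Group G₁] [Group G₂] [Finite G₁] [Finite G₂]
    {p e : ℕ} [Fact p.Prime] (h₁ : (Nat.card G₁).factorization p = e)
    (h₂ : (Nat.card G₂).factorization p = e) (s : κ → G₁ × G₂) (r : G₁ × G₂ → ℕ → Prop)
    (tbl : ℕ → κ → ℕ) (h0 : r 1 0)
    (step : ∀ d i k, i < p ^ e → r d i → tbl i k < p ^ e ∧ r (d * s k) (tbl i k))
    (par : ∀ i < p ^ e, i ≠ 0 → ∃ j < i, ∃ k, tbl j k = i)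
    (func : ∀ d d' i, r d i → r d' i → d = d')
    (inj1 : ∀ d d' i j, i < p ^ e → j < p ^ e → r d i → r d' j → d.1 = d'.1 → i = j)
    (inj2 : ∀ d i, i < p ^ e → r d i → d.2 = 1 → i = 0)
    (P₁ : Sylow p G₁) (P₂ : Sylow p G₂) :
    Nonempty ((P₁ : Subgroup G₁) ≃* (P₂ : Subgroup G₂)) := by
  have hpos : 0 < p ^ e := pow_pos (Fact.out : p.Prime).pos e
  let D := Subgroup.closure (Set.range s)
  have hA : ∀ d ∈ D, ∃ i < p ^ e, r d i := fun d hd => by
    rw [← Subgroup.mem_toSubmonoid, Subgroup.closure_toSubmonoid_of_finite] at hd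
    induction hd using Submonoid.closure_induction_right with
    | one => exact ⟨0, hpos, h0⟩
    | mul_right x _ y hy ih =>
      obtain ⟨k, rfl⟩ := hy
      obtain ⟨i, hi, hr⟩ := ih
      exact ⟨_, step x i k hi hr⟩
  have hB : ∀ i < p ^ e, ∃ d ∈ D, r d i := fun i => by
    induction i using Nat.strong_induction_on with
    | _ i ih =>
      intro hi
      rcases eq_or_ne i 0 with rfl | h
      · exact ⟨1, one_mem _, h0⟩
      · obtain ⟨j, hj, k, rfl⟩ := par i hi h
        obtain ⟨d, hd, hr⟩ := ih j hj (hj.trans hi)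
        exact ⟨_, mul_mem hd (Subgroup.subset_closure ⟨k, rfl⟩), (step d j k (hj.trans hi) hr).2⟩
  have hcard : Nat.card D = p ^ e := by
    choose f hf1 hf2 using hB
    rw [← Nat.card_congr (Equiv.ofBijective (fun i : Fin (p ^ e) => (⟨f i i.2, hf1 i i.2⟩ : D))
      ⟨fun i j h => Fin.ext (inj1 _ _ _ _ i.2 j.2 (hf2 i i.2) (hf2 j j.2)
        (congrArg (fun x : D => x.1.1) h)), fun d => ?_⟩), Nat.card_fin]
    obtain ⟨i, hi, hr⟩ := hA d.1 d.2
    exact ⟨⟨i, hi⟩, Subtype.ext (func _ _ i (hf2 i hi) hr)⟩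
  obtain ⟨e₁⟩ := sylow_equiv_of_injective ((MonoidHom.fst G₁ G₂).comp D.subtype)
    ((injective_iff_map_eq_one _).2 fun d hd => by
      obtain ⟨i, hi, hr⟩ := hA d.1 d.2
      obtain rfl := inj1 _ _ _ _ hi hpos hr h0 hd
      exact Subtype.ext (func _ _ _ hr h0)) (h₁ ▸ hcard) P₁
  obtain ⟨e₂⟩ := sylow_equiv_of_injective ((MonoidHom.snd G₁ G₂).comp D.subtype)
    ((injective_iff_map_eq_one _).2 fun d hd => by
      obtain ⟨i, hi, hr⟩ := hA d.1 d.2
      obtain rfl := inj2 _ _ hi hr hd
      exact Subtype.ext (func _ _ _ hr h0)) (h₂ ▸ hcard) P₂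
  exact ⟨e₁.symm.trans e₂⟩

theorem sylow_equiv_congr {G H : Type*} [Group G] [Group H] [Finite H] {p : ℕ} [Fact p.Prime]
    (e : G ≃* H) (P : Sylow p G) (Q : Sylow p H) : Nonempty ((P : Subgroup G) ≃* (Q : Subgroup H)) := by
  have : Finite G := Finite.of_equiv _ e.toEquiv.symm
  exact sylow_equiv_of_injective (e.toMonoidHom.comp (P : Subgroup G).subtype)
    (e.injective.comp Subtype.val_injective) (by rw [P.card_eq_multiplicity, Nat.card_congr e.toEquiv]) Q

section chain

variable {F : Type*} [Field F] {ι : Type} [Fintype ι] [DecidableEq ι]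

/-- Vectors supported on a list of indices. -/
def suppL (F : Type*) [Field F] (L : List ι) : Submodule F (ι → F) where
  carrier := {v | ∀ i, i ∉ L → v i = 0}
  add_mem' := fun {a b} ha hb i hi => by simp [ha i hi, hb i hi]
  zero_mem' := fun _ _ => rfl
  smul_mem' := fun c a ha i hi => by simp [ha i hi]

omit [Fintype ι] in
theorem suppL_cons (L : List ι) (i : ι) : suppL F (i :: L) = suppL F L ⊔ F ∙ Pi.single i 1 := by
  refine le_antisymm (fun v hv => ?_) (sup_le (fun v hv j hj => hv j fun h => hj (by simp [h]))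
    ((Submodule.span_singleton_le_iff_mem _ _).2 fun j hj =>
      Pi.single_eq_of_ne (fun h => hj (by simp [h])) _))
  by_cases hi : i ∈ L
  · exact Submodule.mem_sup_left fun j hj => hv j (by
      rw [List.mem_cons]; rintro (rfl | h); exacts [hj hi, hj h])
  refine Submodule.mem_sup.2 ⟨v - v i • Pi.single i 1, fun j hj => ?_, _,
    Submodule.smul_mem _ (v i) (Submodule.mem_span_singleton_self _), by simp⟩
  rcases eq_or_ne j i with rfl | h
  · simp
  · simp [h, hv j (by simp [h, hj])]

/-- The number of images of the basis vectors under isometries, along a list of indices. -/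
def chainCard [Fintype F] [DecidableEq F] (Q : (ι → F) → F) : List ι → List ι → ℕ
  | _, [] => 1
  | pre, i :: L => (Finset.univ.filter fun v : ι → F => ¬(∀ j, j ∉ pre → v j = 0) ∧
      (∀ j ∈ pre, Q (Pi.single j 1 + v) = Q (Pi.single j 1 + Pi.single i 1)) ∧
        Q v = Q (Pi.single i 1)).card * chainCard Q (i :: pre) L

theorem card_fix_suppL [Fintype F] [DecidableEq F] (Q : QuadraticForm F (ι → F))
    (h : (ofQuad Q).Nondeg) (pre L : List ι) (hn : (L ++ pre).Nodup) (hall : ∀ i, i ∈ L ++ pre) :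
    Nat.card ↥((ofQuad Q).isom ⊓ fixSub (suppL F pre)) = chainCard Q pre L := by
  induction L generalizing pre with
  | nil =>
    rw [show suppL F pre = ⊤ from eq_top_iff.2 fun v _ i hi => (hi (hall i)).elim, fixSub_top]
    simp [chainCard]
  | cons i L ih =>
    have hi : i ∉ pre := fun hc => (List.nodup_cons.1 hn).1 (by simp [hc])
    rw [h.card_fix_step (suppL F pre) (x := Pi.single i 1) (fun hc => by simpa using hc i hi),
      ← suppL_cons, ih (i :: pre) ((List.perm_middle.nodup_iff).2 hn)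
        (fun j => List.perm_middle.mem_iff.2 (hall j)), chainCard, mul_comm]
    congr 1
    rw [Nat.card_coe_set_eq, ← Set.ncard_coe_finset]
    congr 1
    ext v
    simp only [Finset.coe_filter, Set.mem_setOf_eq, Finset.mem_univ, true_and]
    refine and_congr Iff.rfl (and_congr_left fun hq => ?_)
    change Q v = Q _ at hq
    have key : ∀ u, (ofQuad Q).B u v = (ofQuad Q).B u (Pi.single i 1) ↔
        Q (u + v) = Q (u + Pi.single i 1) := fun u => by
      change QuadraticMap.polar Q u v = QuadraticMap.polar Q u _ ↔ _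
      simp [QuadraticMap.polar, hq]
    refine ⟨fun h1 j hj => (key _).1 (h1 _ fun k hk =>
      Pi.single_eq_of_ne (fun hc : k = j => hk (hc ▸ hj)) _), fun h1 u hu => ?_⟩
    rw [← Finset.univ_sum_single u, map_sum, LinearMap.sum_apply, LinearMap.sum_apply]
    refine Finset.sum_congr rfl fun j _ => ?_
    by_cases hj : j ∈ pre
    · rw [show Pi.single j (u j) = u j • (Pi.single j 1 : ι → F) by
        rw [← Pi.single_smul, smul_eq_mul, mul_one], map_smulₛₗ, LinearMap.smul_apply,
        LinearMap.smul_apply, (key _).2 (h1 j hj)]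
    · simp [hu j hj]

theorem card_isom_eq_chainCard [Fintype F] [DecidableEq F] (Q : QuadraticForm F (ι → F))
    (h : (ofQuad Q).Nondeg) (L : List ι) (hn : L.Nodup) (hall : ∀ i, i ∈ L) :
    Nat.card (Cfsg.isometryGroup F Q) = chainCard Q [] L := by
  rw [← card_fix_suppL Q h [] L (by simpa) (by simpa),
    show suppL F ([] : List ι) = ⊥ from eq_bot_iff.2 fun v hv => funext fun i => hv i (by simp),
    fixSub_bot, inf_top_eq, ← range_ogLE]
  exact Nat.card_congr (MonoidHom.ofInjective (ogLE_injective Q)).toEquiv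

end chain

end Cfsg.H2
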